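import Mathlib
import Cfsg.Prelude.Def_Characters
import Cfsg.Agent.Helper3.IndFun
import Cfsg.Agent.Helper15.CharInner
import Cfsg.Agent.Helper15.Gallagher
import Cfsg.Agent.Helper15.Gallagher2
import Cfsg.Agent.Helper75.CliffordCorr
import Cfsg.Agent.Helper79.Basic
import Cfsg.Agent.Helper79.Quotient
import Cfsg.Agent.Helper80.CharIrr

set_option autoImplicit false

namespace Cfsg.Agent.Helper15

open Cfsg
open scoped ComplexConjugate

section BergerGal

/-- If `σ ∈ Irr(A)` restricts irreducibly to the normal subgroup `N`, then the average of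
`|σ|²` over every coset of `N` is `1`. -/
theorem avgN_norm_eq_one {A : Type*} [Group A] [Fintype A] (N : Subgroup A) [hN : N.Normal]
    [Fintype N] (σ : A → ℂ) (hσ : IsIrrCharacter A σ)
    (hσN : IsIrrCharacter N (fun n : N => σ n)) :
    avgN N (fun g => σ g * conj (σ g)) = fun _ => 1 := by
  have hne : classInner (fun n : N => σ n) (fun n : N => σ n) ≠ 0 := by
    rw [irr_inner_self hσN]; exact one_ne_zero
  obtain ⟨hw_irr, hw_N, hw_eq⟩ := (gallagher_average N σ hσ hσN σ hσ).1 hne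
  have htrivN : IsIrrCharacter N (fun _ => (1 : ℂ)) :=
    Cfsg.Agent.Helper80.trivial_isIrrCharacter
  have htrivA : IsIrrCharacter A (fun _ => (1 : ℂ)) :=
    Cfsg.Agent.Helper80.trivial_isIrrCharacter
  have hprod : IsIrrCharacter N ((fun _ => (1 : ℂ)) * (fun n : N => σ n)) := by
    have : ((fun _ => (1 : ℂ)) * (fun n : N => σ n)) = fun n : N => σ n := by
      funext n; simp
    rw [this]; exact hσN
  apply gallagher_inj N (fun _ => 1) (fun n : N => σ n) htrivN (fun _ _ => rfl) hprod σ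
    (isChar_of_irr hσ) (fun _ => rfl) _ (fun _ => 1) hw_irr htrivA
    ((inner_ind_one_ne_zero_iff N hw_irr).mpr hw_N)
    ((inner_ind_one_ne_zero_iff N htrivA).mpr (fun _ _ => rfl))
  rw [← hw_eq]
  funext g
  simp

/-- Cancellation of a character that restricts irreducibly to `N` against functions constant
on the cosets of `N`. -/
theorem gallagher_cancel {A : Type*} [Group A] [Fintype A] (N : Subgroup A) [hN : N.Normal]
    [Fintype N] (σ : A → ℂ) (hσ : IsIrrCharacter A σ)
    (hσN : IsIrrCharacter N (fun n : N => σ n)) (F₁ F₂ : A → ℂ)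
    (h₁ : ∀ n ∈ N, ∀ g, F₁ (n * g) = F₁ g) (h₂ : ∀ n ∈ N, ∀ g, F₂ (n * g) = F₂ g)
    (h : ∀ g, F₁ g * σ g = F₂ g * σ g) : F₁ = F₂ := by
  have hW := avgN_norm_eq_one N σ hσ hσN
  have key : ∀ F : A → ℂ, (∀ n ∈ N, ∀ g, F (n * g) = F g) →
      avgN N (fun g => F g * σ g * conj (σ g)) = F := by
    intro F hF
    funext x
    have h1 := congrFun hW x
    unfold avgN at h1 ⊢
    have h2 : ∑ n : N, F ((n : A) * x) * σ ((n : A) * x) * conj (σ ((n : A) * x)) =
        F x * ∑ n : N, σ ((n : A) * x) * conj (σ ((n : A) * x)) := by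
      rw [Finset.mul_sum]
      apply Finset.sum_congr rfl
      intro n _
      rw [hF n n.2 x, mul_assoc]
    rw [h2, mul_left_comm, h1, mul_one]
  rw [← key F₁ h₁, ← key F₂ h₂]
  congr 1
  funext g
  rw [h g]

/-- Gallagher's correspondence relative to a subgroup `T` containing the normal subgroup `N`:
an irreducible character of `T` lying over the restriction of `σ`, where `σ ∈ Irr(T)` restricts
irreducibly to `N`, is a product `γ * σ` with `γ` irreducible and trivial on `N`. -/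
theorem gallagher_rel {Γ : Type*} [Group Γ] {N T : Subgroup Γ} [hN : N.Normal] (hNT : N ≤ T)
    [Fintype T] [Fintype N] (σ : T → ℂ) (hσ : IsIrrCharacter T σ)
    (hσN : IsIrrCharacter N (fun n : N => σ ⟨n, hNT n.2⟩)) (ψ : T → ℂ)
    (hψ : IsIrrCharacter T ψ)
    (hne : classInner (fun n : N => ψ ⟨n, hNT n.2⟩) (fun n : N => σ ⟨n, hNT n.2⟩) ≠ 0) :
    ∃ γ : T → ℂ, IsIrrCharacter T γ ∧ (∀ n : N, ∀ t : T, γ (⟨n, hNT n.2⟩ * t) = γ t) ∧
      ψ = γ * σ := by
  classical
  let _ : Fintype ↥(N.subgroupOf T) := Fintype.ofFinite _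
  have hσN' : IsIrrCharacter ↥(N.subgroupOf T) (fun n : ↥(N.subgroupOf T) => σ n) :=
    (Cfsg.Agent.Helper79.isIrrCharacter_mulEquiv (Subgroup.subgroupOfEquivOfLe hNT)).mpr hσN
  have hne' : classInner (fun n : ↥(N.subgroupOf T) => ψ n)
      (fun n : ↥(N.subgroupOf T) => σ n) ≠ 0 := by
    have := Cfsg.Agent.Helper75.classInner_subgroupOf hNT ψ (fun n : N => σ ⟨n, hNT n.2⟩)
    rw [show (fun n : ↥(N.subgroupOf T) => σ n) = fun x : ↥(N.subgroupOf T) =>
      (fun n : N => σ ⟨n, hNT n.2⟩) (Subgroup.subgroupOfEquivOfLe hNT x) from rfl, this]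
    exact hne
  obtain ⟨hγ, hγN, hγeq⟩ := (gallagher_average (N.subgroupOf T) σ hσ hσN' ψ hψ).1 hne'
  refine ⟨_, hγ, ?_, hγeq⟩
  intro n t
  apply Cfsg.Agent.Helper79.isCharacter_ker_mul (isChar_of_irr hγ)
  exact hγN _ (Subgroup.mem_subgroupOf.mpr n.2)

/-- Summation along a surjective homomorphism. -/
theorem sum_comp_surj {Γ G : Type*} [Group Γ] [Group G] [Fintype Γ] [Fintype G] (pr : Γ →* G)
    (hpr : Function.Surjective pr) (F : G → ℂ) :
    ∑ y : Γ, F (pr y) = (Nat.card pr.ker : ℂ) * ∑ g : G, F g := by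
  classical
  rw [← Finset.sum_fiberwise (s := Finset.univ) (g := fun y : Γ => pr y) (f := fun y => F (pr y)),
    Finset.mul_sum]
  apply Finset.sum_congr rfl
  intro g _
  have h1 : ∀ y ∈ Finset.univ.filter (fun y : Γ => pr y = g), F (pr y) = F g := by
    intro y hy
    rw [(Finset.mem_filter.mp hy).2]
  rw [Finset.sum_congr rfl h1, Finset.sum_const, nsmul_eq_mul]
  congr 1
  have h2 := MonoidHom.card_fiber_eq_of_mem_range pr (hpr g) (hpr 1)
  rw [h2]
  have h3 : (Finset.univ.filter (fun y : Γ => pr y = 1)).card = Nat.card pr.ker := by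
    rw [Nat.card_eq_fintype_card, Fintype.card_subtype]
    congr 1
    ext y
    simp [MonoidHom.mem_ker]
  rw [h3]

/-- Order of the preimage of a subgroup under a surjective homomorphism. -/
theorem card_comap_surj {Γ G : Type*} [Group Γ] [Group G] [Finite Γ] [Finite G] (pr : Γ →* G)
    (hpr : Function.Surjective pr) (H : Subgroup G) :
    Nat.card (H.comap pr) = Nat.card pr.ker * Nat.card H := by
  have h1 : (H.comap pr).index = H.index := Subgroup.index_comap_of_surjective H hpr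
  have h2 := Subgroup.card_mul_index (H.comap pr)
  have h3 := Subgroup.card_mul_index H
  have h4 := Subgroup.card_mul_index pr.ker
  have h5 : pr.ker.index = Nat.card G := by
    rw [Subgroup.index_ker, MonoidHom.range_eq_top.mpr hpr, Subgroup.card_top]
  have h6 : H.index ≠ 0 := Subgroup.index_ne_zero_of_finite
  rw [h1] at h2
  have : Nat.card (H.comap pr) * H.index = (Nat.card pr.ker * Nat.card H) * H.index := by
    rw [h2, mul_assoc, h3, ← h5, h4]
  exact Nat.eq_of_mul_eq_mul_right (Nat.pos_of_ne_zero h6) this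

/-- Inflation along a surjective homomorphism commutes with induction. -/
theorem indFun_comap_surj {Γ G : Type*} [Group Γ] [Group G] [Fintype Γ] [Fintype G]
    (pr : Γ →* G) (hpr : Function.Surjective pr) (H : Subgroup G) (ϑ : H → ℂ) (x : Γ) :
    indFun (H.comap pr) (fun h : H.comap pr => ϑ ⟨pr h, h.2⟩) x = indFun H ϑ (pr x) := by
  classical
  unfold indFun
  have h1 : ∀ y : Γ, extendByZero (H.comap pr) (fun h : H.comap pr => ϑ ⟨pr h, h.2⟩)
      (y⁻¹ * x * y) = extendByZero H ϑ ((pr y)⁻¹ * pr x * pr y) := by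
    intro y
    by_cases hy : y⁻¹ * x * y ∈ H.comap pr
    · rw [Cfsg.Agent.Helper3.extendByZero_of_mem _ _ hy]
      have hy' : (pr y)⁻¹ * pr x * pr y ∈ H := by
        have := Subgroup.mem_comap.mp hy
        simpa using this
      rw [Cfsg.Agent.Helper3.extendByZero_of_mem _ _ hy']
      congr 1
      apply Subtype.ext
      simp
    · rw [Cfsg.Agent.Helper3.extendByZero_of_not_mem _ _ hy]
      have hy' : (pr y)⁻¹ * pr x * pr y ∉ H := by
        intro h
        apply hy
        rw [Subgroup.mem_comap]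
        simpa using h
      rw [Cfsg.Agent.Helper3.extendByZero_of_not_mem _ _ hy']
  rw [Finset.sum_congr rfl (fun y _ => h1 y),
    sum_comp_surj pr hpr (fun g => extendByZero H ϑ (g⁻¹ * pr x * g)), card_comap_surj pr hpr H]
  have hk : (Nat.card pr.ker : ℂ) ≠ 0 := by exact_mod_cast Nat.card_pos.ne'
  have hH : (Nat.card H : ℂ) ≠ 0 := by exact_mod_cast Nat.card_pos.ne'
  push_cast
  field_simp

/-- Relative version of `gallagher_cancel` for a subgroup `T` containing the normal
subgroup `N`. -/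
theorem gallagher_cancel_rel {Γ : Type*} [Group Γ] {N T : Subgroup Γ} [hN : N.Normal]
    (hNT : N ≤ T) [Fintype T] [Fintype N] (σ : T → ℂ) (hσ : IsIrrCharacter T σ)
    (hσN : IsIrrCharacter N (fun n : N => σ ⟨n, hNT n.2⟩)) (F₁ F₂ : T → ℂ)
    (h₁ : ∀ n : N, ∀ t : T, F₁ (⟨n, hNT n.2⟩ * t) = F₁ t)
    (h₂ : ∀ n : N, ∀ t : T, F₂ (⟨n, hNT n.2⟩ * t) = F₂ t)
    (h : ∀ t, F₁ t * σ t = F₂ t * σ t) : F₁ = F₂ := by
  classical
  let _ : Fintype ↥(N.subgroupOf T) := Fintype.ofFinite _
  have hσN' : IsIrrCharacter ↥(N.subgroupOf T) (fun n : ↥(N.subgroupOf T) => σ n) :=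
    (Cfsg.Agent.Helper79.isIrrCharacter_mulEquiv (Subgroup.subgroupOfEquivOfLe hNT)).mpr hσN
  apply gallagher_cancel (N.subgroupOf T) σ hσ hσN' F₁ F₂ _ _ h
  · intro n hn g
    exact h₁ ⟨n, Subgroup.mem_subgroupOf.mp hn⟩ g
  · intro n hn g
    exact h₂ ⟨n, Subgroup.mem_subgroupOf.mp hn⟩ g

end BergerGal

end Cfsg.Agent.Helper15
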