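import Mathlib
import Cfsg.Prelude.Def_Characters
import Cfsg.Agent.Helper3.IndFun
import Cfsg.Agent.Helper75.CliffordCorr
import Cfsg.Agent.Helper75.Ito
import Cfsg.Agent.Helper15.LinChar
import Cfsg.Agent.Helper15.MassM
import Cfsg.Agent.Helper15.BergerGal
import Cfsg.Agent.Helper15.BergerTools

set_option autoImplicit false

namespace Cfsg.Agent.Helper15

open Cfsg
open scoped ComplexConjugate

section BergerB3Tools

/-- The inner product is invariant under inflation along a surjective homomorphism. -/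
theorem classInner_comp_surj {A B : Type*} [Group A] [Group B] [Fintype A] [Fintype B]
    (f : A →* B) (hf : Function.Surjective f) (F F' : B → ℂ) :
    classInner (fun a => F (f a)) (fun a => F' (f a)) = classInner F F' := by
  unfold classInner
  rw [sum_comp_surj f hf (fun b => F b * conj (F' b))]
  have h1 : Nat.card A = Nat.card f.ker * Nat.card B := by
    have h4 := Subgroup.card_mul_index f.ker
    rw [Subgroup.index_ker, MonoidHom.range_eq_top.mpr hf, Subgroup.card_top] at h4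
    exact h4.symm
  have hk : (Nat.card f.ker : ℂ) ≠ 0 := by exact_mod_cast Nat.card_pos.ne'
  have hB : (Nat.card B : ℂ) ≠ 0 := by exact_mod_cast Nat.card_pos.ne'
  rw [h1]
  push_cast
  field_simp

/-- A function induced from a function on `T` that is invariant under left multiplication by
the normal subgroup `N₀ ≤ T` is invariant under left multiplication by `N₀`. -/
theorem indFun_left_invariant {Γ : Type*} [Group Γ] [Fintype Γ] (N₀ T : Subgroup Γ)
    [hN : N₀.Normal] (hNT : N₀ ≤ T) (γ : T → ℂ)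
    (hγ : ∀ n : N₀, ∀ t : T, γ (⟨n, hNT n.2⟩ * t) = γ t) (n : Γ) (hn : n ∈ N₀) (g : Γ) :
    indFun T γ (n * g) = indFun T γ g := by
  unfold indFun
  congr 1
  apply Finset.sum_congr rfl
  intro x _
  have h1 : x⁻¹ * (n * g) * x = (x⁻¹ * n * x) * (x⁻¹ * g * x) := by group
  have h2 : x⁻¹ * n * x ∈ N₀ := by
    have := hN.conj_mem n hn x⁻¹
    rwa [inv_inv] at this
  rw [h1]
  by_cases hy : x⁻¹ * g * x ∈ T
  · have hy' : (x⁻¹ * n * x) * (x⁻¹ * g * x) ∈ T := T.mul_mem (hNT h2) hy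
    rw [Cfsg.Agent.Helper3.extendByZero_of_mem T γ hy',
      Cfsg.Agent.Helper3.extendByZero_of_mem T γ hy]
    exact hγ ⟨_, h2⟩ ⟨_, hy⟩
  · have hy' : (x⁻¹ * n * x) * (x⁻¹ * g * x) ∉ T := by
      intro h
      apply hy
      have := T.mul_mem (T.inv_mem (hNT h2)) h
      rwa [inv_mul_cancel_left] at this
    rw [Cfsg.Agent.Helper3.extendByZero_of_not_mem T γ hy',
      Cfsg.Agent.Helper3.extendByZero_of_not_mem T γ hy]

/-- If `Γ = M₀ Ĥ` with `M₀` normal and `N` is normalized by `Ĥ`, then `N ⊔ M₀` is normal. -/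
theorem sup_normal_of_cover {Γ : Type*} [Group Γ] (M₀ Hh N : Subgroup Γ) [hM : M₀.Normal]
    (hcover : ∀ x : Γ, ∃ m ∈ M₀, ∃ h ∈ Hh, x = m * h)
    (hN : ∀ h ∈ Hh, ∀ n ∈ N, h * n * h⁻¹ ∈ N) : (N ⊔ M₀).Normal := by
  constructor
  intro a ha x
  have ha' : a ∈ ((M₀ ⊔ N : Subgroup Γ) : Set Γ) := by rw [sup_comm]; exact ha
  rw [Subgroup.normal_mul] at ha'
  obtain ⟨m, hm, n, hn, rfl⟩ := ha'
  obtain ⟨m₀, hm₀, h, hh, rfl⟩ := hcover x
  have h1 : m₀ * h * (m * n) * (m₀ * h)⁻¹ =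
      (m₀ * h * m * (m₀ * h)⁻¹) * (m₀ * ((h * n * h⁻¹) * m₀⁻¹ * (h * n * h⁻¹)⁻¹)) *
        (h * n * h⁻¹) := by group
  rw [h1]
  have h2 : m₀ * h * m * (m₀ * h)⁻¹ ∈ M₀ := hM.conj_mem m hm _
  have h3 : (h * n * h⁻¹) * m₀⁻¹ * (h * n * h⁻¹)⁻¹ ∈ M₀ := hM.conj_mem _ (M₀.inv_mem hm₀) _
  exact (N ⊔ M₀).mul_mem
    ((N ⊔ M₀).mul_mem (Subgroup.mem_sup_right h2)
      (Subgroup.mem_sup_right (M₀.mul_mem hm₀ h3)))
    (Subgroup.mem_sup_left (hN h hh n hn))

/-- A subgroup acting by scalars in a representation on a nontrivial space gives a linear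
character. -/
theorem exists_scalar_char {Γ : Type*} [Group Γ] {V : Type*} [AddCommGroup V] [Module ℂ V]
    [Nontrivial V] (ρ : Representation ℂ Γ V) (X : Subgroup Γ)
    (hX : ∀ x ∈ X, ∃ ω : ℂ, ρ x = ω • (1 : Module.End ℂ V)) :
    ∃ f : X →* ℂˣ, ∀ x : X, ρ x = ((f x : ℂˣ) : ℂ) • (1 : Module.End ℂ V) := by
  have hinj : ∀ c c' : ℂ, c • (1 : Module.End ℂ V) = c' • (1 : Module.End ℂ V) → c = c' := by
    intro c c' h
    obtain ⟨v, hv⟩ := exists_ne (0 : V)
    have h1 := LinearMap.congr_fun h v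
    simp only [LinearMap.smul_apply, Module.End.one_apply] at h1
    exact smul_left_injective ℂ hv h1
  have hX' : ∀ x : X, ∃ ω : ℂ, ρ x = ω • (1 : Module.End ℂ V) := fun x => hX x x.2
  choose ω hω using hX'
  let f₀ : X →* ℂ :=
    { toFun := ω
      map_one' := by
        apply hinj
        rw [← hω, one_smul]
        exact map_one ρ
      map_mul' := by
        intro x y
        apply hinj
        rw [← hω]
        show ρ ((x : Γ) * (y : Γ)) = _
        rw [map_mul, hω x, hω y, smul_mul_smul_comm, mul_one] }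
  refine ⟨MonoidHom.toHomUnits f₀, fun x => ?_⟩
  exact hω x

/-- Dichotomy from Clifford theory: if `σ ∈ Irr(Γ)` restricts to the normal subgroup `X` as a
multiple `c` of a linear character and `c` is prime to `|R : X|` for a normal subgroup
`R ≥ X`, then either `|σ| = c` on `R` or `σ` is induced from a proper subgroup. -/
theorem homog_or_induced {Γ : Type*} [Group Γ] [Fintype Γ] (X R : Subgroup Γ) [hX : X.Normal]
    [hR : R.Normal] (hXR : X ≤ R) (σ : Γ → ℂ) (hσ : IsIrrCharacter Γ σ) (lam : X → ℂ)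
    (hlam : IsIrrCharacter X lam) (hlam1 : lam 1 = 1) (c : ℕ)
    (hσX : (fun x : X => σ x) = (c : ℂ) • lam) (hcop : Nat.Coprime c (X.relIndex R)) :
    (∀ x ∈ R, σ x * conj (σ x) = (c : ℂ) * c) ∨
      ∃ (T : Subgroup Γ) (τ : T → ℂ), T ≠ ⊤ ∧ IsIrrCharacter T τ ∧ indFun T τ = σ := by
  classical
  have hσc : IsCharacter Γ σ := isChar_of_irr hσ
  have hσ1 : σ 1 ≠ 0 := Cfsg.Agent.Helper80.irr_one_ne_zero ⟨σ, hσ⟩
  have hc : σ 1 = (c : ℂ) := by
    have := congrFun hσX 1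
    simp only [Pi.smul_apply, smul_eq_mul, hlam1, mul_one] at this
    exact this
  have hc0 : (c : ℂ) ≠ 0 := hc ▸ hσ1
  have hσRc : IsCharacter R (fun r : R => σ r) :=
    Cfsg.Agent.Helper79.isCharacter_restrict hσc R
  have hσRne : (fun r : R => σ r) ≠ 0 := by
    intro h
    exact hσ1 (congrFun h 1)
  obtain ⟨ν, hν⟩ := exists_constituent (isClassFunction_of_isChar hσRc) hσRne
  by_cases hT : Cfsg.Agent.Helper75.inertia R (ν : R → ℂ) = ⊤
  · left
    have hinv : ∀ g : Γ, Cfsg.Agent.Helper75.conjFun R g (ν : R → ℂ) = (ν : R → ℂ) := by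
      intro g
      apply (Cfsg.Agent.Helper75.mem_inertia R (ν : R → ℂ) g).mp
      rw [hT]; trivial
    obtain ⟨e, he0, he, -⟩ :=
      Cfsg.Agent.Helper75.restrict_eq_natCast_smul_of_invariant R hσ ν.2 hν hinv
    have he' : (e : ℂ) ≠ 0 := by exact_mod_cast he0.ne'
    have hval : ∀ r : R, σ r = (e : ℂ) * (ν : R → ℂ) r := fun r => congrFun he r
    have hres : Cfsg.Agent.Helper75.resTo hXR (ν : R → ℂ) = ((c : ℂ) / (e : ℂ)) • lam := by
      funext x
      have h1 := hval ⟨x, hXR x.2⟩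
      have h2 := congrFun hσX x
      simp only [Pi.smul_apply, smul_eq_mul] at h2 ⊢
      have h3 : (e : ℂ) * (ν : R → ℂ) ⟨x, hXR x.2⟩ = (c : ℂ) * lam x := by
        rw [← h1]; exact h2
      show (ν : R → ℂ) ⟨x, hXR x.2⟩ = (c : ℂ) / (e : ℂ) * lam x
      field_simp
      rw [mul_comm]
      exact h3
    have hcon : classInner (Cfsg.Agent.Helper75.resTo hXR (ν : R → ℂ)) lam ≠ 0 := by
      rw [hres, classInner_smul_left, irr_inner_self hlam, mul_one]
      exact div_ne_zero hc0 he'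
    obtain ⟨k, hk1, hk2⟩ := degree_dvd_relIndex hXR (ν : R → ℂ) ν.2 lam hlam hcon
    rw [hlam1, mul_one] at hk1
    have hcek : c = e * k := by
      have h1 := hval 1
      have h2 : σ ((1 : R) : Γ) = σ 1 := rfl
      rw [h2, hc, hk1] at h1
      exact_mod_cast h1
    have hk : k = 1 :=
      Nat.eq_one_of_dvd_coprimes hcop (hcek ▸ Dvd.intro_left e rfl) hk2
    rw [hk, Nat.cast_one] at hk1
    rw [hk, mul_one] at hcek
    obtain ⟨f, hf⟩ := linChar_exists_hom (ν : R → ℂ) ⟨isChar_of_irr ν.2, hk1⟩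
    intro x hx
    have h1 := hval ⟨x, hx⟩
    have h2 : σ ((⟨x, hx⟩ : R) : Γ) = σ x := rfl
    rw [h2] at h1
    have h3 : (ν : R → ℂ) ⟨x, hx⟩ * conj ((ν : R → ℂ) ⟨x, hx⟩) = 1 := by
      rw [hf, Complex.mul_conj, Complex.normSq_eq_norm_sq,
        Cfsg.Agent.Helper79.norm_hom_apply f]
      simp
    rw [h1, map_mul, Complex.conj_natCast, hcek]
    calc (e : ℂ) * (ν : R → ℂ) ⟨x, hx⟩ * ((e : ℂ) * conj ((ν : R → ℂ) ⟨x, hx⟩))
        = (e : ℂ) * (e : ℂ) * ((ν : R → ℂ) ⟨x, hx⟩ * conj ((ν : R → ℂ) ⟨x, hx⟩)) := by ring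
      _ = (e : ℂ) * (e : ℂ) := by rw [h3, mul_one]
  · right
    have hRT : R ≤ Cfsg.Agent.Helper75.inertia R (ν : R → ℂ) :=
      Cfsg.Agent.Helper75.le_inertia R (ν : R → ℂ)
        (isClassFunction_of_isChar (isChar_of_irr ν.2))
    obtain ⟨τ, hτ, hτ1, hτ2⟩ := Cfsg.Agent.Helper75.exists_irr_over hRT (isChar_of_irr ν.2) hσc hν
    have hcl := Cfsg.Agent.Helper75.clifford_correspondence hRT ν.2
      (fun g => Cfsg.Agent.Helper75.mem_inertia R (ν : R → ℂ) g) hτ hσ hτ2 hτ1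
    exact ⟨_, τ, hT, hτ, hcl.1⟩

end BergerB3Tools

end Cfsg.Agent.Helper15
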