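import Mathlib
import Cfsg.Prelude.Def_Characters
import Cfsg.Prelude.Def_Blocks
import Cfsg.Agent.Helper15.CharInner
import Cfsg.Agent.Helper15.CharScalar
import Cfsg.Agent.Helper15.LinChar
import Cfsg.Agent.Helper15.WreathBase
import Cfsg.Agent.Helper3.IndFun
import Cfsg.Agent.Helper3.Induced
import Cfsg.Agent.Helper79.Basic
import Cfsg.Agent.Helper79.Quotient

/-!
# Groups of central type from a "critical" invariant linear character

If `Z ⊴ X` and `lam : Z →* ℂˣ` is `X`-invariant, and every `x ∉ Z` has a commutator partner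
`g` with `[x, g] ∈ Z` and `lam [x, g] ≠ 1`, then every irreducible constituent `ψ` of the
induced character vanishes off `Z`, restricts to a multiple of `lam` on `Z`, and has
`ψ(1)^2 = |X : Z|`.
-/

set_option autoImplicit false

namespace Cfsg.Agent.Helper15

open scoped ComplexConjugate

universe u

section CentralType

variable {X : Type u} [Group X] [Finite X] (Z : Subgroup X) [hZn : Z.Normal] (lam : Z →* ℂˣ)

theorem ct_lemma (hinv : ∀ (g : X) (z w : Z), (w : X) = g * z * g⁻¹ → lam w = lam z)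
    (hcrit : ∀ x : X, x ∉ Z → ∃ (g : X) (c : Z), (c : X) = x * g * x⁻¹ * g⁻¹ ∧ lam c ≠ 1) :
    ∃ ψ : X → ℂ, Cfsg.IsIrrCharacter X ψ ∧
      (∀ (z : Z) (x : X), ψ (z * x) = (lam z : ℂ) * ψ x) ∧
      (∀ x : X, x ∉ Z → ψ x = 0) ∧ (Cfsg.charDegree ψ) ^ 2 = Z.index := by
  classical
  let _ : Fintype X := Fintype.ofFinite X
  set θ : Z → ℂ := fun z => (lam z : ℂ) with hθ
  have hΛ : Cfsg.IsClassFunction X (Cfsg.indFun Z θ) :=
    Cfsg.Agent.Helper3.indFun_isClassFunction Z θ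
  have hΛ0 : Cfsg.indFun Z θ ≠ 0 := by
    intro h0
    have h1 := congrFun h0 1
    rw [indFun_apply'] at h1
    have h2 : ∀ x : X, Cfsg.extendByZero Z θ (x⁻¹ * 1 * x) = 1 := by
      intro x
      have h3 : x⁻¹ * 1 * x = ((1 : Z) : X) := by simp
      rw [h3, Cfsg.Agent.Helper3.extendByZero_coe]
      simp [hθ]
    rw [Finset.sum_congr rfl (fun x _ => h2 x)] at h1
    simp only [Finset.sum_const, Finset.card_univ, nsmul_eq_mul, mul_one,
      Pi.zero_apply] at h1
    have h4 : (Nat.card Z : ℂ) ≠ 0 := by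
      exact_mod_cast Nat.card_pos.ne'
    have h5 : (Fintype.card X : ℂ) ≠ 0 := by
      exact_mod_cast Fintype.card_ne_zero
    exact mul_ne_zero (inv_ne_zero h4) h5 h1
  obtain ⟨χ, hχ⟩ := exists_constituent hΛ hΛ0
  have hχchar : Cfsg.IsCharacter X χ.1 := isChar_of_irr χ.2
  rw [Cfsg.Agent.Helper3.frobenius_reciprocity Z θ χ.1
    (isClassFunction_of_isChar hχchar)] at hχ
  obtain ⟨n, ρ, hirr, hρ⟩ := χ.2
  have := hirr
  -- the averaging operator
  set E : Module.End ℂ (Fin n → ℂ) := ∑ z : Z, ((lam z : ℂ)⁻¹) • ρ (z : X) with hE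
  have hE1 : ∀ z0 : Z, ρ (z0 : X) * E = (lam z0 : ℂ) • E := by
    intro z0
    rw [hE, Finset.mul_sum, Finset.smul_sum]
    refine Fintype.sum_equiv (Equiv.mulLeft z0) _ _ (fun z => ?_)
    simp only [Equiv.coe_mulLeft, Subgroup.coe_mul, map_mul, Units.val_mul, mul_smul_comm,
      smul_smul]
    congr 1
    have : (lam z0 : ℂ) ≠ 0 := Units.ne_zero _
    have : (lam z : ℂ) ≠ 0 := Units.ne_zero _
    field_simp
  have hE2 : ∀ g : X, E * ρ g = ρ g * E := by
    intro g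
    rw [hE, Finset.mul_sum, Finset.sum_mul]
    symm
    refine Fintype.sum_equiv (MulAut.conjNormal g : Z ≃* Z).toEquiv _ _ (fun w => ?_)
    have h1 : (((MulAut.conjNormal g : Z ≃* Z) w : Z) : X) = g * w * g⁻¹ := by
      simp [MulAut.conjNormal_apply]
    have h2 : lam ((MulAut.conjNormal g : Z ≃* Z) w) = lam w := hinv g w _ h1
    simp only [MulEquiv.toEquiv_eq_coe, MulEquiv.coe_toEquiv, h2, mul_smul_comm, smul_mul_assoc,
      ← map_mul, h1]
    congr 2
    group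
  obtain ⟨c, hc⟩ := Cfsg.Agent.Helper80.schur_scalar ρ E hE2
  have hnorm : ∀ z : Z, ‖(lam z : ℂ)‖ = 1 := fun z => Cfsg.Agent.Helper79.norm_hom_apply lam z
  have htr : LinearMap.trace ℂ (Fin n → ℂ) E = ∑ z : Z, ((lam z : ℂ)⁻¹) * χ.1 (z : X) := by
    rw [hE, map_sum]
    refine Finset.sum_congr rfl (fun z _ => ?_)
    rw [map_smul, smul_eq_mul, ← hρ]
    rfl
  have hc0 : c ≠ 0 := by
    intro hc0
    apply hχ
    rw [hc0, zero_smul] at hc
    rw [hc, map_zero] at htr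
    unfold Cfsg.classInner
    have h1 : ∑ z : Z, θ z * conj (χ.1 (z : X)) = conj (∑ z : Z, ((lam z : ℂ)⁻¹) * χ.1 (z : X)) := by
      rw [map_sum]
      refine Finset.sum_congr rfl (fun z _ => ?_)
      rw [map_mul, Complex.inv_eq_conj (hnorm z), Complex.conj_conj]
    rw [h1, ← htr, map_zero, mul_zero]
  have hscal : ∀ z0 : Z, ρ (z0 : X) = (lam z0 : ℂ) • (1 : Module.End ℂ (Fin n → ℂ)) := by
    intro z0
    have h1 := hE1 z0
    rw [hc, mul_smul_comm, mul_one, smul_smul, mul_comm, ← smul_smul] at h1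
    exact smul_right_injective _ hc0 h1
  have hmul : ∀ (z : Z) (x : X), χ.1 (z * x) = (lam z : ℂ) * χ.1 x := by
    intro z x
    rw [← hρ]
    exact char_mul_of_rep_scalar ρ (hscal z) x
  have hvan : ∀ x : X, x ∉ Z → χ.1 x = 0 := by
    intro x hx
    obtain ⟨g, c0, hc0eq, hc0ne⟩ := hcrit x hx
    have h1 : x = (c0 : X) * (g * x * g⁻¹) := by
      rw [hc0eq]; group
    have h2 : χ.1 x = (lam c0 : ℂ) * χ.1 x := by
      conv_lhs => rw [h1]
      rw [hmul, Cfsg.Agent.Helper79.isCharacter_conj_eq hχchar]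
    have h3 : (lam c0 : ℂ) ≠ 1 := by
      intro h; exact hc0ne (Units.ext h)
    have h4 : ((lam c0 : ℂ) - 1) * χ.1 x = 0 := by
      rw [sub_mul, one_mul, ← h2, sub_self]
    rcases mul_eq_zero.mp h4 with h | h
    · exact absurd (sub_eq_zero.mp h) h3
    · exact h
  refine ⟨χ.1, χ.2, hmul, hvan, ?_⟩
  have hdeg : χ.1 1 = (Cfsg.charDegree χ.1 : ℂ) :=
    Cfsg.Agent.Helper79.isCharacter_one_eq_charDegree hχchar
  have hinner := irr_inner_self χ.2
  unfold Cfsg.classInner at hinner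
  have hsum : ∑ x : X, χ.1 x * conj (χ.1 x) = ∑ z : Z, χ.1 (z : X) * conj (χ.1 (z : X)) := by
    have := Cfsg.Agent.Helper3.sum_extendByZero_mul Z (fun z : Z => χ.1 (z : X))
      (fun x => conj (χ.1 x))
    rw [← this]
    refine Finset.sum_congr rfl (fun x _ => ?_)
    by_cases hx : x ∈ Z
    · rw [Cfsg.Agent.Helper3.extendByZero_of_mem Z _ hx]
    · rw [Cfsg.Agent.Helper3.extendByZero_of_not_mem Z _ hx, hvan x hx]
  have hsum2 : ∑ z : Z, χ.1 (z : X) * conj (χ.1 (z : X))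
      = (Nat.card Z : ℂ) * (Cfsg.charDegree χ.1 : ℂ) ^ 2 := by
    have h1 : ∀ z : Z, χ.1 (z : X) * conj (χ.1 (z : X)) = (Cfsg.charDegree χ.1 : ℂ) ^ 2 := by
      intro z
      have h2 : χ.1 (z : X) = (lam z : ℂ) * (Cfsg.charDegree χ.1 : ℂ) := by
        have := hmul z 1
        rwa [mul_one, hdeg] at this
      rw [h2, map_mul, Complex.conj_natCast, ← Complex.inv_eq_conj (hnorm z)]
      have : (lam z : ℂ) ≠ 0 := Units.ne_zero _
      field_simp
    rw [Finset.sum_congr rfl (fun z _ => h1 z), Finset.sum_const, Finset.card_univ,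
      nsmul_eq_mul, Nat.card_eq_fintype_card]
  rw [hsum, hsum2] at hinner
  have hcard : Nat.card X = Nat.card Z * Z.index := (Subgroup.card_mul_index Z).symm
  have hX0 : (Nat.card X : ℂ) ≠ 0 := by exact_mod_cast Nat.card_pos.ne'
  have h6 : (Nat.card Z : ℂ) * (Cfsg.charDegree χ.1 : ℂ) ^ 2 = (Nat.card X : ℂ) := by
    field_simp at hinner
    exact hinner
  have h7 : Nat.card Z * (Cfsg.charDegree χ.1) ^ 2 = Nat.card Z * Z.index := by
    rw [← hcard]
    exact_mod_cast h6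
  exact Nat.eq_of_mul_eq_mul_left Nat.card_pos h7

/-- The inductive datum for Gagola's embedding theorem: a finite group `X` with a normal
subgroup `Z` carrying an invariant "critical" linear character, such that `G` embeds in
`X ⧸ Z`, together with the bookkeeping about primes. -/
def GagolaData (G : Type u) [Group G] : Prop :=
  ∃ (X : Type u) (_ : Group X) (_ : Finite X) (Z : Subgroup X) (_ : Z.Normal) (lam : Z →* ℂˣ),
    (∀ (g : X) (z w : Z), (w : X) = g * z * g⁻¹ → lam w = lam z) ∧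
    (∀ x : X, x ∉ Z → ∃ (g : X) (c : Z), (c : X) = x * g * x⁻¹ * g⁻¹ ∧ lam c ≠ 1) ∧
    (∃ ι : G →* X ⧸ Z, Function.Injective ι) ∧
    (∃ m : ℕ, Squarefree m ∧ (∀ q : ℕ, q.Prime → q ∣ m → q ∣ Nat.card G) ∧
      ∀ z, lam z ^ m = 1) ∧
    (∀ q : ℕ, q.Prime → q ∣ Nat.card G → ∃ z : Z, lam z ≠ 1 ∧ lam z ^ q = 1) ∧
    (∀ q : ℕ, q.Prime → q ∣ Z.index → q ∣ Nat.card G)

theorem gagola_of_data {G : Type u} [Group G] [Finite G] (h : GagolaData G) :
    ∃ (H : Type u) (_ : Group H) (_ : Finite H) (χ : Cfsg.IrrCharacter H),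
      (∀ h : H, (χ : H → ℂ) h = (χ : H → ℂ) 1 → h = 1) ∧
      (Cfsg.charDegree (χ : H → ℂ)) ^ 2 = (Subgroup.center H).index ∧
      (∃ f : G →* H ⧸ Subgroup.center H, Function.Injective f) ∧
      (∀ p : ℕ, p.Prime → ((p ∣ Nat.card H ↔ p ∣ Nat.card G) ∧
        (p ∣ Nat.card (Subgroup.center H) ↔ p ∣ Nat.card G))) ∧
      Squarefree (Nat.card (Subgroup.center H)) := by
  obtain ⟨X, _, _, Z, hZn, lam, hinv, hcrit, ⟨ι, hι⟩, ⟨m, hmsq, hmG, hlam⟩, hI2, hI3⟩ := h
  obtain ⟨ψ, hψirr, hψmul, hψvan, hψdeg⟩ := ct_lemma Z lam hinv hcrit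
  have hψchar : Cfsg.IsCharacter X ψ := isChar_of_irr hψirr
  have hdeg : ψ 1 = (Cfsg.charDegree ψ : ℂ) :=
    Cfsg.Agent.Helper79.isCharacter_one_eq_charDegree hψchar
  have hidx0 : Z.index ≠ 0 := Subgroup.index_ne_zero_of_finite
  have hψ1 : ψ 1 ≠ 0 := by
    rw [hdeg]
    intro h0
    have h1 : Cfsg.charDegree ψ = 0 := by exact_mod_cast h0
    rw [h1] at hψdeg
    exact hidx0 (by simpa using hψdeg.symm)
  set K : Subgroup X := (lam.ker).map Z.subtype with hK
  have hKmem : ∀ x : X, x ∈ K ↔ ∃ h : x ∈ Z, lam ⟨x, h⟩ = 1 := by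
    intro x
    constructor
    · rintro ⟨z, hz, rfl⟩
      exact ⟨z.2, hz⟩
    · rintro ⟨h, h1⟩
      exact ⟨⟨x, h⟩, h1, rfl⟩
  have hKn : K.Normal := by
    constructor
    intro x hx g
    obtain ⟨h, h1⟩ := (hKmem x).mp hx
    have h2 : g * x * g⁻¹ ∈ Z := hZn.conj_mem x h g
    refine (hKmem _).mpr ⟨h2, ?_⟩
    rw [hinv g ⟨x, h⟩ ⟨g * x * g⁻¹, h2⟩ rfl]; exact h1
  have hψK : ∀ x ∈ K, ψ x = ψ 1 := by
    intro x hx
    obtain ⟨h, h1⟩ := (hKmem x).mp hx
    have h2 := hψmul ⟨x, h⟩ 1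
    rw [mul_one] at h2
    rw [h2, h1]; simp
  obtain ⟨ψb, hψb, hψbeq⟩ := Cfsg.Agent.Helper79.exists_irr_deflation (N := K) hψirr hψK
  have hψb1 : ψb 1 = ψ 1 := by
    rw [← hψbeq 1]; rfl
  have hcenter : (Subgroup.center (X ⧸ K)).comap (QuotientGroup.mk' K) = Z := by
    ext x
    rw [Subgroup.mem_comap, Subgroup.mem_center_iff]
    constructor
    · intro hx
      by_contra hxZ
      obtain ⟨g, c0, hc0, hne⟩ := hcrit x hxZ
      apply hne
      have h1 : ((x * g * x⁻¹ * g⁻¹ : X) : X ⧸ K) = 1 := by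
        have h2 := hx (g : X ⧸ K)
        simp only [QuotientGroup.mk'_apply] at h2
        rw [QuotientGroup.mk_mul, QuotientGroup.mk_mul, QuotientGroup.mk_mul,
          QuotientGroup.mk_inv, QuotientGroup.mk_inv, ← h2]
        group
      rw [QuotientGroup.eq_one_iff] at h1
      obtain ⟨h2, h3⟩ := (hKmem _).mp h1
      have h4 : c0 = ⟨x * g * x⁻¹ * g⁻¹, h2⟩ := Subtype.ext hc0
      rw [h4]; exact h3
    · intro hx h
      induction h using QuotientGroup.induction_on with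
      | H g =>
        simp only [QuotientGroup.mk'_apply]
        rw [← QuotientGroup.mk_mul, ← QuotientGroup.mk_mul, QuotientGroup.eq]
        have h1 : g⁻¹ * x * g⁻¹⁻¹ ∈ Z := hZn.conj_mem x hx g⁻¹
        have h2 : (g * x)⁻¹ * (x * g) = x⁻¹ * (g⁻¹ * x * g⁻¹⁻¹) := by group
        have h3 : x⁻¹ * (g⁻¹ * x * g⁻¹⁻¹) ∈ Z := Z.mul_mem (Z.inv_mem hx) h1
        rw [h2]
        refine (hKmem _).mpr ⟨h3, ?_⟩
        have h4 : (⟨x⁻¹ * (g⁻¹ * x * g⁻¹⁻¹), h3⟩ : Z)
            = (⟨x, hx⟩ : Z)⁻¹ * ⟨g⁻¹ * x * g⁻¹⁻¹, h1⟩ := rfl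
        rw [h4, map_mul, map_inv, hinv g⁻¹ ⟨x, hx⟩ ⟨g⁻¹ * x * g⁻¹⁻¹, h1⟩ rfl]
        simp
  have hindex : (Subgroup.center (X ⧸ K)).index = Z.index := by
    rw [← hcenter]
    exact (Subgroup.index_comap_of_surjective _ (QuotientGroup.mk'_surjective K)).symm
  -- cardinalities
  have hXK : Nat.card X = Nat.card (X ⧸ K) * Nat.card K :=
    Subgroup.card_eq_card_quotient_mul_card_subgroup K
  have hHc : Nat.card (Subgroup.center (X ⧸ K)) * (Subgroup.center (X ⧸ K)).index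
      = Nat.card (X ⧸ K) := Subgroup.card_mul_index _
  have hXZ : Nat.card Z * Z.index = Nat.card X := Subgroup.card_mul_index Z
  have hZk : Nat.card lam.ker * Nat.card lam.range = Nat.card Z := by
    rw [← Subgroup.index_ker]; exact Subgroup.card_mul_index _
  have hKk : Nat.card K = Nat.card lam.ker :=
    Subgroup.card_map_of_injective Z.subtype_injective
  have hcc : Nat.card (Subgroup.center (X ⧸ K)) = Nat.card lam.range := by
    have hker0 : 0 < Nat.card lam.ker := Nat.card_pos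
    have hidx0' : 0 < Z.index := Nat.pos_of_ne_zero hidx0
    have h1 : Nat.card (Subgroup.center (X ⧸ K)) * (Z.index * Nat.card lam.ker)
        = Nat.card lam.range * (Z.index * Nat.card lam.ker) := by
      calc Nat.card (Subgroup.center (X ⧸ K)) * (Z.index * Nat.card lam.ker)
          = (Nat.card (Subgroup.center (X ⧸ K)) * (Subgroup.center (X ⧸ K)).index)
              * Nat.card K := by rw [hindex, hKk]; ring
        _ = Nat.card X := by rw [hHc, ← hXK]
        _ = Nat.card lam.range * (Z.index * Nat.card lam.ker) := by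
            rw [← hXZ, ← hZk]; ring
    exact Nat.eq_of_mul_eq_mul_right (Nat.mul_pos hidx0' hker0) h1
  have hm0 : m ≠ 0 := hmsq.ne_zero
  have hrange_dvd : Nat.card lam.range ∣ m := by
    have : NeZero m := ⟨hm0⟩
    have h1 : lam.range ≤ rootsOfUnity m ℂ := by
      rintro _ ⟨z, rfl⟩
      rw [mem_rootsOfUnity]
      exact hlam z
    have h2 := Subgroup.card_dvd_of_le h1
    rwa [Complex.card_rootsOfUnity m] at h2
  have hq_range : ∀ q : ℕ, q.Prime → q ∣ Nat.card G → q ∣ Nat.card lam.range := by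
    intro q hq hqG
    obtain ⟨z, hz1, hzq⟩ := hI2 q hq hqG
    have : Fact q.Prime := ⟨hq⟩
    have h1 : orderOf (lam z) = q := orderOf_eq_prime hzq hz1
    rw [← h1]
    exact Subgroup.orderOf_dvd_natCard lam.range ⟨z, rfl⟩
  have hcenter_iff : ∀ q : ℕ, q.Prime →
      (q ∣ Nat.card (Subgroup.center (X ⧸ K)) ↔ q ∣ Nat.card G) := by
    intro q hq
    rw [hcc]
    exact ⟨fun h => hmG q hq (h.trans hrange_dvd), hq_range q hq⟩
  refine ⟨X ⧸ K, inferInstance, inferInstance, ⟨ψb, hψb⟩, ?_, ?_, ?_, ?_, ?_⟩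
  · intro h hh
    induction h using QuotientGroup.induction_on with
    | H x =>
      have h1 : ψ x = ψ 1 := by
        have h2 : ψb (x : X ⧸ K) = ψb 1 := hh
        rw [hψbeq, hψb1] at h2
        exact h2
      have hxZ : x ∈ Z := by
        by_contra hx
        rw [hψvan x hx] at h1
        exact hψ1 h1.symm
      have h2 := hψmul ⟨x, hxZ⟩ 1
      rw [mul_one] at h2
      have h3 : ((lam ⟨x, hxZ⟩ : ℂˣ) : ℂ) = 1 := by
        have h4 : ((lam ⟨x, hxZ⟩ : ℂˣ) : ℂ) * ψ 1 = 1 * ψ 1 := by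
          rw [one_mul, ← h2]; exact h1
        exact mul_right_cancel₀ hψ1 h4
      rw [QuotientGroup.eq_one_iff]
      exact (hKmem x).mpr ⟨hxZ, Units.ext h3⟩
  · have h1 : Cfsg.charDegree ψb = Cfsg.charDegree ψ := by
      unfold Cfsg.charDegree
      rw [hψb1]
    show (Cfsg.charDegree ψb) ^ 2 = _
    rw [h1, hψdeg, hindex]
  · set φ0 : X →* (X ⧸ K) ⧸ Subgroup.center (X ⧸ K) :=
      (QuotientGroup.mk' (Subgroup.center (X ⧸ K))).comp (QuotientGroup.mk' K) with hφ0
    have hφ0ker : ∀ x : X, φ0 x = 1 ↔ x ∈ Z := by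
      intro x
      rw [hφ0, MonoidHom.comp_apply, QuotientGroup.mk'_apply, QuotientGroup.eq_one_iff,
        ← Subgroup.mem_comap, hcenter]
    have hle : Z ≤ φ0.ker := fun x hx => (hφ0ker x).mpr hx
    refine ⟨(QuotientGroup.lift Z φ0 hle).comp ι, ?_⟩
    rw [MonoidHom.coe_comp]
    refine Function.Injective.comp ?_ hι
    rw [injective_iff_map_eq_one]
    intro a ha
    induction a using QuotientGroup.induction_on with
    | H x =>
      rw [QuotientGroup.lift_mk] at ha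
      rw [QuotientGroup.eq_one_iff]
      exact (hφ0ker x).mp ha
  · intro q hq
    refine ⟨⟨fun h => ?_, fun h => ?_⟩, hcenter_iff q hq⟩
    · rw [← hHc, hindex] at h
      rcases (Nat.Prime.dvd_mul hq).mp h with h1 | h1
      · exact (hcenter_iff q hq).mp h1
      · exact hI3 q hq h1
    · rw [← hHc]
      exact Dvd.dvd.mul_right ((hcenter_iff q hq).mpr h) _
  · rw [hcc]
    exact hmsq.squarefree_of_dvd hrange_dvd

end CentralType

end Cfsg.Agent.Helper15
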