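import Mathlib
import Cfsg.Agent.Helper15.CentralType
import Cfsg.Agent.Helper15.DadeEmb

/-!
# The wreath–Heisenberg step for Gagola's embedding theorem

Given `(X, Z, lam)` with an invariant critical character and a group `Q` with an injective
homomorphism `ε : Q →* Multiplicative (ZMod p)`, we build a group `CTW X ε` on
`(Q → X) × ZMod p × ZMod p × Q` (a wreath product glued with a Heisenberg group) which again
carries an invariant critical character on a normal subgroup, and whose quotient by that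
subgroup contains `(X ⧸ Z) ≀ᵣ Q`.
-/

set_option autoImplicit false

namespace Cfsg.Agent.Helper15

universe u

/-- Carrier of the wreath–Heisenberg gadget. -/
@[ext]
structure CTW (X : Type u) {Q : Type u} [Group Q] {p : ℕ}
    (ε : Q →* Multiplicative (ZMod p)) where
  /-- base component -/
  f : Q → X
  /-- Heisenberg `b`-coordinate -/
  j : ZMod p
  /-- Heisenberg central coordinate -/
  k : ZMod p
  /-- top component -/
  q : Q

section Gadget

variable {X : Type u} [Group X] {Q : Type u} [Group Q] {p : ℕ}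
  (ε : Q →* Multiplicative (ZMod p))

/-- additive version of `ε` -/
def ctwEps (a : Q) : ZMod p := Multiplicative.toAdd (ε a)

@[simp] theorem ctwEps_mul (a b : Q) : ctwEps ε (a * b) = ctwEps ε a + ctwEps ε b := by
  simp [ctwEps]

@[simp] theorem ctwEps_one : ctwEps ε (1 : Q) = 0 := by
  simp [ctwEps]

@[simp] theorem ctwEps_inv (a : Q) : ctwEps ε a⁻¹ = - ctwEps ε a := by
  simp [ctwEps]

namespace CTW

instance : Mul (CTW X ε) where
  mul a b := ⟨fun x => a.f x * b.f (a.q⁻¹ * x), a.j + b.j,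
    a.k + b.k + ctwEps ε a.q * b.j, a.q * b.q⟩

instance : One (CTW X ε) := ⟨⟨fun _ => 1, 0, 0, 1⟩⟩

instance : Inv (CTW X ε) where
  inv a := ⟨fun x => (a.f (a.q * x))⁻¹, -a.j, -a.k + ctwEps ε a.q * a.j, a.q⁻¹⟩

@[simp] theorem mul_f (a b : CTW X ε) (x : Q) : (a * b).f x = a.f x * b.f (a.q⁻¹ * x) := rfl
@[simp] theorem mul_j (a b : CTW X ε) : (a * b).j = a.j + b.j := rfl
@[simp] theorem mul_k (a b : CTW X ε) :
    (a * b).k = a.k + b.k + ctwEps ε a.q * b.j := rfl
@[simp] theorem mul_q (a b : CTW X ε) : (a * b).q = a.q * b.q := rfl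
@[simp] theorem one_f (x : Q) : (1 : CTW X ε).f x = 1 := rfl
@[simp] theorem one_j : (1 : CTW X ε).j = 0 := rfl
@[simp] theorem one_k : (1 : CTW X ε).k = 0 := rfl
@[simp] theorem one_q : (1 : CTW X ε).q = 1 := rfl
@[simp] theorem inv_f (a : CTW X ε) (x : Q) : (a⁻¹).f x = (a.f (a.q * x))⁻¹ := rfl
@[simp] theorem inv_j (a : CTW X ε) : (a⁻¹).j = -a.j := rfl
@[simp] theorem inv_k (a : CTW X ε) : (a⁻¹).k = -a.k + ctwEps ε a.q * a.j := rfl
@[simp] theorem inv_q (a : CTW X ε) : (a⁻¹).q = a.q⁻¹ := rfl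

instance : Group (CTW X ε) where
  mul_assoc a b c := by
    ext x
    · simp [mul_assoc]
    · simp [add_assoc]
    · simp; ring
    · simp [mul_assoc]
  one_mul a := by
    ext x <;> simp
  mul_one a := by
    ext x <;> simp
  inv_mul_cancel a := by
    ext x <;> simp

/-- The underlying product. -/
def equivProd : CTW X ε ≃ (Q → X) × ZMod p × ZMod p × Q where
  toFun a := (a.f, a.j, a.k, a.q)
  invFun t := ⟨t.1, t.2.1, t.2.2.1, t.2.2.2⟩
  left_inv _ := rfl
  right_inv _ := rfl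

instance [Finite X] [Finite Q] [NeZero p] : Finite (CTW X ε) :=
  Finite.of_equiv _ (equivProd ε).symm

end CTW

end Gadget

/-- An injective character of `ZMod p`. -/
theorem exists_zmod_char (p : ℕ) [NeZero p] :
    ∃ χ0 : Multiplicative (ZMod p) →* ℂˣ, Function.Injective χ0 := by
  refine ⟨(ZMod.stdAddChar (N := p)).toMonoidHom.toHomUnits, ?_⟩
  intro a b h
  have h1 := congrArg Units.val h
  rw [MonoidHom.coe_toHomUnits, MonoidHom.coe_toHomUnits] at h1
  have h2 : ZMod.stdAddChar (Multiplicative.toAdd a) = ZMod.stdAddChar (Multiplicative.toAdd b) :=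
    h1
  have h3 := ZMod.injective_stdAddChar h2
  exact Multiplicative.toAdd.injective h3

section Ext

variable {X : Type u} [Group X] (Z : Subgroup X) (lam : Z →* ℂˣ)

open scoped Classical in
/-- Extension of `lam` by `1` off `Z`. -/
noncomputable def ctwL (x : X) : ℂˣ := if h : x ∈ Z then lam ⟨x, h⟩ else 1

theorem ctwL_mem {x : X} (h : x ∈ Z) : ctwL Z lam x = lam ⟨x, h⟩ := by
  unfold ctwL; rw [dif_pos h]

theorem ctwL_one : ctwL Z lam 1 = 1 := by
  rw [ctwL_mem Z lam Z.one_mem]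
  exact map_one lam

theorem ctwL_mul {a b : X} (ha : a ∈ Z) (hb : b ∈ Z) :
    ctwL Z lam (a * b) = ctwL Z lam a * ctwL Z lam b := by
  rw [ctwL_mem Z lam ha, ctwL_mem Z lam hb, ctwL_mem Z lam (Z.mul_mem ha hb), ← map_mul]
  rfl

theorem ctwL_inv {a : X} (ha : a ∈ Z) :
    ctwL Z lam a⁻¹ = (ctwL Z lam a)⁻¹ := by
  rw [ctwL_mem Z lam ha, ctwL_mem Z lam (Z.inv_mem ha), ← map_inv]
  rfl

theorem ctwL_conj [hZn : Z.Normal]
    (hinv : ∀ (g : X) (z w : Z), (w : X) = g * z * g⁻¹ → lam w = lam z) (g : X) {a : X}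
    (ha : a ∈ Z) : ctwL Z lam (g * a * g⁻¹) = ctwL Z lam a := by
  rw [ctwL_mem Z lam ha, ctwL_mem Z lam (hZn.conj_mem a ha g)]
  exact hinv g ⟨a, ha⟩ _ rfl

end Ext

section Step

variable {X : Type u} [Group X] {Q : Type u} [Group Q] {p : ℕ}
  (ε : Q →* Multiplicative (ZMod p)) (Z : Subgroup X) [hZn : Z.Normal]

/-- The projection of the gadget onto `((X ⧸ Z) ≀ᵣ Q) × C_p`. -/
def ctwPhi : CTW X ε →* ((X ⧸ Z) ≀ᵣ Q) × Multiplicative (ZMod p) where
  toFun u := (⟨fun x => (u.f x : X ⧸ Z), u.q⟩, Multiplicative.ofAdd u.j)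
  map_one' := rfl
  map_mul' a b := by
    refine Prod.ext (RegularWreathProduct.ext (funext fun x => ?_) rfl) rfl
    simp

theorem ctwPhi_ker_iff (u : CTW X ε) :
    u ∈ (ctwPhi ε Z).ker ↔ (∀ x, u.f x ∈ Z) ∧ u.q = 1 ∧ u.j = 0 := by
  rw [MonoidHom.mem_ker]
  constructor
  · intro h
    have h1 := congrArg Prod.fst h
    have h2 := congrArg Prod.snd h
    have h3 := congrArg RegularWreathProduct.left h1
    have h4 := congrArg RegularWreathProduct.right h1
    refine ⟨fun x => ?_, h4, ?_⟩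
    · have h5 := congrFun h3 x
      exact (QuotientGroup.eq_one_iff _).mp h5
    · exact h2
  · rintro ⟨h1, h2, h3⟩
    refine Prod.ext (RegularWreathProduct.ext (funext fun x => ?_) h2) ?_
    · exact (QuotientGroup.eq_one_iff _).mpr (h1 x)
    · show Multiplicative.ofAdd u.j = 1
      rw [h3]; rfl

theorem ctwPhi_surjective : Function.Surjective (ctwPhi ε Z) := by
  rintro ⟨⟨fb, q⟩, j⟩
  refine ⟨⟨fun x => (fb x).out, Multiplicative.toAdd j, 0, q⟩, ?_⟩
  refine Prod.ext (RegularWreathProduct.ext (funext fun x => ?_) rfl) rfl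
  exact QuotientGroup.out_eq' (fb x)

variable [Fintype Q] (lam : Z →* ℂˣ) (χ0 : Multiplicative (ZMod p) →* ℂˣ)

/-- The new character on the kernel of `ctwPhi`. -/
noncomputable def ctwLam : (ctwPhi ε Z).ker →* ℂˣ where
  toFun u := (∏ x, ctwL Z lam (u.1.f x)) * χ0 (Multiplicative.ofAdd u.1.k)
  map_one' := by
    have h1 : ∀ x : Q, ctwL Z lam (((1 : (ctwPhi ε Z).ker) : CTW X ε).f x) = 1 :=
      fun x => ctwL_one Z lam
    rw [Finset.prod_congr rfl (fun x _ => h1 x)]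
    simp
  map_mul' a b := by
    obtain ⟨ha1, ha2, ha3⟩ := (ctwPhi_ker_iff ε Z _).mp a.2
    obtain ⟨hb1, hb2, hb3⟩ := (ctwPhi_ker_iff ε Z _).mp b.2
    have h1 : ∀ x : Q, ctwL Z lam ((((a * b : (ctwPhi ε Z).ker)) : CTW X ε).f x)
        = ctwL Z lam (a.1.f x) * ctwL Z lam (b.1.f x) := by
      intro x
      have : (((a * b : (ctwPhi ε Z).ker)) : CTW X ε).f x = a.1.f x * b.1.f x := by
        simp [ha2]
      rw [this, ctwL_mul Z lam (ha1 x) (hb1 x)]
    have h2 : (((a * b : (ctwPhi ε Z).ker)) : CTW X ε).k = a.1.k + b.1.k := by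
      simp [ha2]
    rw [Finset.prod_congr rfl (fun x _ => h1 x), h2, Finset.prod_mul_distrib, ofAdd_add,
      map_mul]
    exact mul_mul_mul_comm _ _ _ _

theorem ctwLam_apply (u : (ctwPhi ε Z).ker) :
    ctwLam ε Z lam χ0 u = (∏ x, ctwL Z lam (u.1.f x)) * χ0 (Multiplicative.ofAdd u.1.k) := rfl

theorem ctwLam_inv (hinv : ∀ (g : X) (z w : Z), (w : X) = g * z * g⁻¹ → lam w = lam z)
    (g : CTW X ε) (z w : (ctwPhi ε Z).ker) (h : (w : CTW X ε) = g * z * g⁻¹) :
    ctwLam ε Z lam χ0 w = ctwLam ε Z lam χ0 z := by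
  obtain ⟨hz1, hz2, hz3⟩ := (ctwPhi_ker_iff ε Z _).mp z.2
  have hf : ∀ x, (w : CTW X ε).f x = g.f x * (z : CTW X ε).f (g.q⁻¹ * x) * (g.f x)⁻¹ := by
    intro x
    rw [h]
    simp [hz2]
  have hk : (w : CTW X ε).k = (z : CTW X ε).k := by
    rw [h]
    simp [hz2, hz3]
    ring
  rw [ctwLam_apply, ctwLam_apply, hk]
  congr 1
  calc ∏ x, ctwL Z lam (w.1.f x) = ∏ x, ctwL Z lam (z.1.f (g.q⁻¹ * x)) :=
        Finset.prod_congr rfl (fun x _ => by
          rw [hf x]; exact ctwL_conj Z lam hinv _ (hz1 _))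
    _ = ∏ x, ctwL Z lam (z.1.f x) :=
        Fintype.prod_equiv (Equiv.mulLeft g.q⁻¹) _ _ (fun x => rfl)

theorem ctwLam_crit [Fact p.Prime] (hε : Function.Injective ε) [Nontrivial Q]
    (hχ0 : Function.Injective χ0)
    (hcrit : ∀ x : X, x ∉ Z → ∃ (g : X) (c : Z), (c : X) = x * g * x⁻¹ * g⁻¹ ∧ lam c ≠ 1)
    (u : CTW X ε) (hu : u ∉ (ctwPhi ε Z).ker) :
    ∃ (g : CTW X ε) (c : (ctwPhi ε Z).ker), (c : CTW X ε) = u * g * u⁻¹ * g⁻¹ ∧
      ctwLam ε Z lam χ0 c ≠ 1 := by
  classical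
  have heps : ∀ a : Q, a ≠ 1 → ctwEps ε a ≠ 0 := by
    intro a ha h0
    apply ha
    apply hε
    rw [map_one]
    exact h0
  have hχk : ∀ k : ZMod p, k ≠ 0 → χ0 (Multiplicative.ofAdd k) ≠ 1 := by
    intro k hk h1
    apply hk
    have h2 := hχ0 (h1.trans (map_one χ0).symm)
    exact h2
  by_cases hq : u.q = 1
  · by_cases hf : ∀ x, u.f x ∈ Z
    · -- the Heisenberg `b`-coordinate is nonzero
      have hj : u.j ≠ 0 := fun hj => hu ((ctwPhi_ker_iff ε Z u).mpr ⟨hf, hq, hj⟩)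
      obtain ⟨q0, hq0⟩ := exists_ne (1 : Q)
      set g : CTW X ε := ⟨fun _ => 1, 0, 0, q0⟩ with hg
      have hc : u * g * u⁻¹ * g⁻¹
          = ⟨fun x => u.f x * (u.f (q0⁻¹ * x))⁻¹, 0, - (ctwEps ε q0 * u.j), 1⟩ := by
        ext x
        · simp [hg, hq]
        · simp [hg]
        · simp [hg, hq]
        · simp [hg, hq]
      have hmem : u * g * u⁻¹ * g⁻¹ ∈ (ctwPhi ε Z).ker := by
        rw [hc, ctwPhi_ker_iff]
        exact ⟨fun x => Z.mul_mem (hf x) (Z.inv_mem (hf _)), rfl, rfl⟩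
      refine ⟨g, ⟨_, hmem⟩, rfl, ?_⟩
      rw [ctwLam_apply]
      simp only [hc]
      have hprod : ∏ x, ctwL Z lam (u.f x * (u.f (q0⁻¹ * x))⁻¹) = 1 := by
        have h1 : ∀ x, ctwL Z lam (u.f x * (u.f (q0⁻¹ * x))⁻¹)
            = ctwL Z lam (u.f x) * (ctwL Z lam (u.f (q0⁻¹ * x)))⁻¹ := by
          intro x
          rw [ctwL_mul Z lam (hf x) (Z.inv_mem (hf _)), ctwL_inv Z lam (hf _)]
        rw [Finset.prod_congr rfl (fun x _ => h1 x), Finset.prod_mul_distrib,
          Finset.prod_inv_distrib]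
        rw [Fintype.prod_equiv (Equiv.mulLeft q0⁻¹) (fun x => ctwL Z lam (u.f (q0⁻¹ * x)))
          (fun x => ctwL Z lam (u.f x)) (fun x => rfl)]
        exact mul_inv_cancel _
      rw [hprod, one_mul]
      apply hχk
      exact neg_ne_zero.mpr (mul_ne_zero (heps q0 hq0) hj)
    · -- some base coordinate is outside `Z`
      obtain ⟨m, hm⟩ := not_forall.mp hf
      obtain ⟨g0, c0, hc0, hne⟩ := hcrit (u.f m) hm
      set g : CTW X ε := ⟨Pi.mulSingle m g0, 0, 0, 1⟩ with hg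
      have hc : u * g * u⁻¹ * g⁻¹ = ⟨Pi.mulSingle m (c0 : X), 0, 0, 1⟩ := by
        ext x
        · by_cases hx : x = m
          · subst hx; simp [hg, hq, hc0]
          · simp [hg, hq, Pi.mulSingle_eq_of_ne hx]
        · simp [hg]
        · simp [hg, hq]
        · simp [hg, hq]
      have hmem : u * g * u⁻¹ * g⁻¹ ∈ (ctwPhi ε Z).ker := by
        rw [hc, ctwPhi_ker_iff]
        refine ⟨fun x => ?_, rfl, rfl⟩
        by_cases hx : x = m
        · subst hx; simp
        · simp [Pi.mulSingle_eq_of_ne hx, Z.one_mem]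
      refine ⟨g, ⟨_, hmem⟩, rfl, ?_⟩
      rw [ctwLam_apply]
      simp only [hc]
      have hprod : ∏ x, ctwL Z lam ((Pi.mulSingle m (c0 : X) : Q → X) x) = lam c0 := by
        rw [Fintype.prod_eq_single m (fun x hx => by
          rw [Pi.mulSingle_eq_of_ne hx]; exact ctwL_one Z lam)]
        rw [Pi.mulSingle_eq_same, ctwL_mem Z lam c0.2]
      rw [hprod]
      simpa using hne
  · -- the top component is nontrivial
    set g : CTW X ε := ⟨fun _ => 1, 1, 0, 1⟩ with hg
    have hc : u * g * u⁻¹ * g⁻¹ = ⟨fun _ => 1, 0, ctwEps ε u.q, 1⟩ := by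
      ext x
      · simp [hg]
      · simp [hg]
      · simp [hg]
        ring
      · simp [hg]
    have hmem : u * g * u⁻¹ * g⁻¹ ∈ (ctwPhi ε Z).ker := by
      rw [hc, ctwPhi_ker_iff]
      exact ⟨fun x => Z.one_mem, rfl, rfl⟩
    refine ⟨g, ⟨_, hmem⟩, rfl, ?_⟩
    rw [ctwLam_apply]
    simp only [hc]
    have hprod : ∏ _x : Q, ctwL Z lam (1 : X) = 1 := by
      rw [Finset.prod_congr rfl (fun x _ => ctwL_one Z lam)]
      simp
    rw [hprod, one_mul]
    exact hχk _ (heps u.q hq)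

end Step

section Main

theorem ct_wreath_step {X : Type u} [Group X] [Finite X] (Z : Subgroup X) [hZn : Z.Normal]
    (lam : Z →* ℂˣ)
    (hinv : ∀ (g : X) (z w : Z), (w : X) = g * z * g⁻¹ → lam w = lam z)
    (hcrit : ∀ x : X, x ∉ Z → ∃ (g : X) (c : Z), (c : X) = x * g * x⁻¹ * g⁻¹ ∧ lam c ≠ 1)
    {Q : Type u} [Group Q] [Finite Q] [Nontrivial Q] {p : ℕ} [Fact p.Prime]
    (ε : Q →* Multiplicative (ZMod p)) (hε : Function.Injective ε) :
    ∃ (X' : Type u) (_ : Group X') (_ : Finite X') (Z' : Subgroup X') (_ : Z'.Normal)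
      (lam' : Z' →* ℂˣ),
      (∀ (g : X') (z w : Z'), (w : X') = g * z * g⁻¹ → lam' w = lam' z) ∧
      (∀ x : X', x ∉ Z' → ∃ (g : X') (c : Z'), (c : X') = x * g * x⁻¹ * g⁻¹ ∧ lam' c ≠ 1) ∧
      (∃ ι : (X ⧸ Z) ≀ᵣ Q →* X' ⧸ Z', Function.Injective ι) ∧
      (∀ m : ℕ, (∀ z, lam z ^ m = 1) → p ∣ m → ∀ z', lam' z' ^ m = 1) ∧
      (∃ z' : Z', lam' z' ≠ 1 ∧ lam' z' ^ p = 1) ∧
      (∀ z : Z, ∃ z' : Z', lam' z' = lam z) ∧
      (∀ q : ℕ, q.Prime → q ∣ Z'.index → q ∣ Z.index ∨ q = p) := by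
  classical
  let _ : Fintype Q := Fintype.ofFinite Q
  obtain ⟨χ0, hχ0⟩ := exists_zmod_char p
  have hpow : ∀ (k : ZMod p) (m : ℕ), p ∣ m → χ0 (Multiplicative.ofAdd k) ^ m = 1 := by
    intro k m hpm
    rw [← map_pow, ← ofAdd_nsmul, nsmul_eq_mul, (ZMod.natCast_eq_zero_iff m p).mpr hpm,
      zero_mul]
    exact map_one χ0
  refine ⟨CTW X ε, inferInstance, inferInstance, (ctwPhi ε Z).ker, inferInstance,
    ctwLam ε Z lam χ0, ctwLam_inv ε Z lam χ0 hinv, ctwLam_crit ε Z lam χ0 hε hχ0 hcrit,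
    ?_, ?_, ?_, ?_, ?_⟩
  · refine ⟨((QuotientGroup.quotientKerEquivOfSurjective (ctwPhi ε Z)
      (ctwPhi_surjective ε Z)).symm.toMonoidHom).comp (MonoidHom.inl _ _), ?_⟩
    rw [MonoidHom.coe_comp]
    exact (MulEquiv.injective _).comp (fun a b h => congrArg Prod.fst h)
  · intro m hm hpm z'
    obtain ⟨hz1, hz2, hz3⟩ := (ctwPhi_ker_iff ε Z _).mp z'.2
    rw [ctwLam_apply, mul_pow, hpow _ m hpm, mul_one, ← Finset.prod_pow]
    refine Finset.prod_eq_one (fun x _ => ?_)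
    rw [ctwL_mem Z lam (hz1 x)]
    exact hm _
  · have hmem : (⟨fun _ => 1, 0, 1, 1⟩ : CTW X ε) ∈ (ctwPhi ε Z).ker := by
      rw [ctwPhi_ker_iff]
      exact ⟨fun x => Z.one_mem, rfl, rfl⟩
    have hval : ctwLam ε Z lam χ0 ⟨_, hmem⟩ = χ0 (Multiplicative.ofAdd 1) := by
      rw [ctwLam_apply]
      have hprod : ∏ _x : Q, ctwL Z lam (1 : X) = 1 := by
        rw [Finset.prod_congr rfl (fun x _ => ctwL_one Z lam)]
        simp
      simp only [hprod, one_mul]
    refine ⟨⟨_, hmem⟩, ?_, ?_⟩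
    · rw [hval]
      intro h1
      have h2 := hχ0 (h1.trans (map_one χ0).symm)
      exact one_ne_zero (α := ZMod p) h2
    · rw [hval]
      exact hpow 1 p dvd_rfl
  · intro z
    have hmem : (⟨Pi.mulSingle 1 (z : X), 0, 0, 1⟩ : CTW X ε) ∈ (ctwPhi ε Z).ker := by
      rw [ctwPhi_ker_iff]
      refine ⟨fun x => ?_, rfl, rfl⟩
      by_cases hx : x = 1
      · subst hx; simp
      · simp [Pi.mulSingle_eq_of_ne hx, Z.one_mem]
    refine ⟨⟨_, hmem⟩, ?_⟩
    rw [ctwLam_apply]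
    have hprod : ∏ x, ctwL Z lam ((Pi.mulSingle 1 (z : X) : Q → X) x) = lam z := by
      rw [Fintype.prod_eq_single 1 (fun x hx => by
        rw [Pi.mulSingle_eq_of_ne hx]; exact ctwL_one Z lam)]
      rw [Pi.mulSingle_eq_same, ctwL_mem Z lam z.2]
    simp only [hprod]
    simp
  · intro q hq hqi
    have h1 : (ctwPhi ε Z).ker.index
        = Nat.card (((X ⧸ Z) ≀ᵣ Q) × Multiplicative (ZMod p)) := by
      rw [Subgroup.index_ker, MonoidHom.range_eq_top.mpr (ctwPhi_surjective ε Z),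
        Subgroup.card_top]
    have h2 : Nat.card (Multiplicative (ZMod p)) = p := by
      rw [Nat.card_congr Multiplicative.toAdd, Nat.card_zmod]
    have h3 : Nat.card Q ∣ p := by
      have := Subgroup.card_dvd_of_injective ε hε
      rwa [h2] at this
    rw [h1, Nat.card_prod, RegularWreathProduct.card, h2] at hqi
    have hp : p.Prime := Fact.out
    rcases (Nat.Prime.dvd_mul hq).mp hqi with h | h
    · rcases (Nat.Prime.dvd_mul hq).mp h with h | h
      · left
        exact Nat.Prime.dvd_of_dvd_pow hq h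
      · right
        exact (Nat.prime_dvd_prime_iff_eq hq hp).mp (h.trans h3)
    · right
      exact (Nat.prime_dvd_prime_iff_eq hq hp).mp h

theorem gagolaData_of_subsingleton (G : Type u) [Group G] [Subsingleton G] : GagolaData G := by
  refine ⟨PUnit.{u+1}, inferInstance, inferInstance, ⊤, inferInstance, 1, ?_, ?_, ⟨1, ?_⟩,
    ⟨1, squarefree_one, ?_, ?_⟩, ?_, ?_⟩
  · intro g z w _
    rfl
  · intro x hx
    exact absurd (Subgroup.mem_top x) hx
  · intro a b _
    exact Subsingleton.elim a b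
  · intro q hq hq1
    exact absurd (Nat.dvd_one.mp hq1) hq.ne_one
  · intro z
    simp
  · intro q hq hqG
    rw [Nat.card_of_subsingleton (1 : G)] at hqG
    exact absurd (Nat.dvd_one.mp hqG) hq.ne_one
  · intro q hq hqi
    rw [Subgroup.index_top] at hqi
    exact absurd (Nat.dvd_one.mp hqi) hq.ne_one

theorem gagolaData_step {G : Type u} [Group G] [Finite G] (N : Subgroup G) [hN : N.Normal]
    (hp : (Nat.card (G ⧸ N)).Prime) (h : GagolaData N) : GagolaData G := by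
  obtain ⟨X, _, _, Z, hZn, lam, hinv, hcrit, ⟨ι, hι⟩, ⟨m, hmsq, hmG, hlam⟩, hI2, hI3⟩ := h
  have : Fact (Nat.card (G ⧸ N)).Prime := ⟨hp⟩
  have hcyc : IsCyclic (G ⧸ N) := isCyclic_of_prime_card rfl
  have hnt : Nontrivial (G ⧸ N) :=
    Finite.one_lt_card_iff_nontrivial.mp hp.one_lt
  have hε : Function.Injective ((zmodCyclicMulEquiv hcyc).symm.toMonoidHom) :=
    (zmodCyclicMulEquiv hcyc).symm.injective
  obtain ⟨φ, hφ⟩ := exists_wreath_embedding N ι hι
  obtain ⟨X', _, _, Z', hZ'n, lam', hinv', hcrit', ⟨ι', hι'⟩, hm', ⟨zp, hzp1, hzpp⟩, hold,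
    hidx⟩ := ct_wreath_step Z lam hinv hcrit ((zmodCyclicMulEquiv hcyc).symm.toMonoidHom) hε
  have hcardG : Nat.card G = Nat.card N * Nat.card (G ⧸ N) := by
    rw [← Subgroup.index_eq_card]
    exact (Subgroup.card_mul_index N).symm
  have hNG : ∀ q : ℕ, q ∣ Nat.card N → q ∣ Nat.card G := fun q h => by
    rw [hcardG]; exact Dvd.dvd.mul_right h _
  have hpG : Nat.card (G ⧸ N) ∣ Nat.card G := by
    rw [hcardG]; exact Dvd.intro_left _ rfl
  refine ⟨X', inferInstance, inferInstance, Z', hZ'n, lam', hinv', hcrit',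
    ⟨ι'.comp φ, ?_⟩, ?_, ?_, ?_⟩
  · rw [MonoidHom.coe_comp]
    exact hι'.comp hφ
  · by_cases hpm : Nat.card (G ⧸ N) ∣ m
    · exact ⟨m, hmsq, fun q hq hqm => hNG q (hmG q hq hqm), hm' m hlam hpm⟩
    · refine ⟨m * Nat.card (G ⧸ N), ?_, ?_, ?_⟩
      · rw [Nat.squarefree_mul_iff]
        exact ⟨Nat.Coprime.symm ((Nat.Prime.coprime_iff_not_dvd hp).mpr hpm), hmsq,
          hp.prime.squarefree⟩
      · intro q hq hqmp
        rcases (Nat.Prime.dvd_mul hq).mp hqmp with h | h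
        · exact hNG q (hmG q hq h)
        · rw [(Nat.prime_dvd_prime_iff_eq hq hp).mp h]
          exact hpG
      · exact hm' _ (fun z => by rw [pow_mul, hlam z, one_pow]) (Dvd.intro_left m rfl)
  · intro q hq hqG
    rw [hcardG] at hqG
    rcases (Nat.Prime.dvd_mul hq).mp hqG with h | h
    · obtain ⟨z, hz1, hzq⟩ := hI2 q hq h
      obtain ⟨z', hz'⟩ := hold z
      exact ⟨z', by rw [hz']; exact hz1, by rw [hz']; exact hzq⟩
    · rw [(Nat.prime_dvd_prime_iff_eq hq hp).mp h]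
      exact ⟨zp, hzp1, hzpp⟩
  · intro q hq hqi
    rcases hidx q hq hqi with h | h
    · exact hNG q (hI3 q hq h)
    · rw [h]
      exact hpG

theorem gagolaData_of_solvable_aux (n : ℕ) : ∀ (G : Type u) [Group G] [Finite G],
    Group.IsSolvable G → Nat.card G = n → GagolaData G := by
  induction n using Nat.strong_induction_on with
  | _ n ih =>
    intro G _ _ hsol hn
    by_cases htriv : Subsingleton G
    · exact gagolaData_of_subsingleton G
    · rw [not_subsingleton_iff_nontrivial] at htriv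
      obtain ⟨N, hNn, hNp⟩ := exists_normal_prime_index' hsol
      have hNlt : Nat.card N < n := by
        rw [← hn, ← Subgroup.card_mul_index N]
        have h1 : 0 < Nat.card N := Nat.card_pos
        nlinarith [hNp.two_le]
      have hQ : (Nat.card (G ⧸ N)).Prime := by
        rw [← Subgroup.index_eq_card]
        exact hNp
      exact gagolaData_step N hQ (ih (Nat.card N) hNlt N inferInstance rfl)

/-- **Gagola's embedding theorem**: every finite solvable group embeds in `H ⧸ Z(H)` for a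
group `H` of central type with squarefree cyclic centre and the same prime divisors. -/
theorem gagola_embedding {G : Type u} [Group G] [Finite G] (hsolv : Group.IsSolvable G) :
    ∃ (H : Type u) (_ : Group H) (_ : Finite H) (χ : Cfsg.IrrCharacter H),
      (∀ h : H, (χ : H → ℂ) h = (χ : H → ℂ) 1 → h = 1) ∧
      (Cfsg.charDegree (χ : H → ℂ)) ^ 2 = (Subgroup.center H).index ∧
      (∃ f : G →* H ⧸ Subgroup.center H, Function.Injective f) ∧
      (∀ p : ℕ, p.Prime → ((p ∣ Nat.card H ↔ p ∣ Nat.card G) ∧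
        (p ∣ Nat.card (Subgroup.center H) ↔ p ∣ Nat.card G))) ∧
      Squarefree (Nat.card (Subgroup.center H)) :=
  gagola_of_data (gagolaData_of_solvable_aux (Nat.card G) G hsolv rfl)

end Main

end Cfsg.Agent.Helper15
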