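import Mathlib
import Cfsg.Prelude.Def_Characters
import Cfsg.Agent.Helper15.CharInner

set_option autoImplicit false

namespace Cfsg.Agent.Helper15

open Cfsg
open scoped ComplexConjugate

section FTA

variable {G : Type*} [Group G]

/-- The "bad set" of `H`: non-central elements commuting with a non-identity element of `H`. -/
def ftD (H : Subgroup G) (g : G) : Prop :=
  g ∉ Subgroup.center G ∧ ∃ h ∈ H, h ≠ 1 ∧ g * h = h * g

/-- The hypothesis that centralizers of non-central elements meet at most one conjugate of `H`. -/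
def FTHyp (H : Subgroup G) : Prop :=
  ∀ g : G, g ∉ Subgroup.center G → ∀ a b : G,
    Subgroup.centralizer ({g} : Set G) ⊓ H.map (MulAut.conj a).toMonoidHom ≠ ⊥ →
    Subgroup.centralizer ({g} : Set G) ⊓ H.map (MulAut.conj b).toMonoidHom ≠ ⊥ →
    H.map (MulAut.conj a).toMonoidHom = H.map (MulAut.conj b).toMonoidHom

theorem ftD_not_center_conj (H : Subgroup G) {g x : G} (hx : ftD H (x⁻¹ * g * x)) :
    g ∉ Subgroup.center G := by
  intro hg
  apply hx.1
  have h1 : x⁻¹ * g * x = g := by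
    rw [mul_assoc, ← Subgroup.mem_center_iff.mp hg x, inv_mul_cancel_left]
  rw [h1]
  exact hg

theorem ftD_meet (H : Subgroup G) {g x : G} (hx : ftD H (x⁻¹ * g * x)) :
    Subgroup.centralizer ({g} : Set G) ⊓ H.map (MulAut.conj x).toMonoidHom ≠ ⊥ := by
  obtain ⟨-, h, hh, hh1, hcomm⟩ := hx
  intro heq
  have h1 : x * h * x⁻¹ ∈ Subgroup.centralizer ({g} : Set G) ⊓
      H.map (MulAut.conj x).toMonoidHom := by
    refine Subgroup.mem_inf.mpr ⟨?_, ?_⟩
    · rw [Subgroup.mem_centralizer_iff]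
      intro y hy
      rw [Set.mem_singleton_iff] at hy
      subst hy
      have h2 : y * (x * h * x⁻¹) = x * ((x⁻¹ * y * x) * h) * x⁻¹ := by group
      have h3 : x * h * x⁻¹ * y = x * (h * (x⁻¹ * y * x)) * x⁻¹ := by group
      rw [h2, h3, hcomm]
    · rw [Subgroup.mem_map]
      exact ⟨h, hh, rfl⟩
  rw [heq, Subgroup.mem_bot] at h1
  apply hh1
  have h2 : h = x⁻¹ * (x * h * x⁻¹) * x := by group
  rw [h2, h1]
  group

theorem ftD_conj_normalizer (H : Subgroup G) (hone : FTHyp H)
    {g x y : G} (hx : ftD H (x⁻¹ * g * x)) (hy : ftD H (y⁻¹ * g * y)) :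
    x⁻¹ * y ∈ Subgroup.normalizer (H : Set G) := by
  have hg := ftD_not_center_conj H hx
  have heq := hone g hg x y (ftD_meet H hx) (ftD_meet H hy)
  rw [Subgroup.mem_normalizer_iff]
  intro k
  constructor
  · intro hk
    have h1 : y * k * y⁻¹ ∈ H.map (MulAut.conj y).toMonoidHom :=
      Subgroup.mem_map.mpr ⟨k, hk, rfl⟩
    rw [← heq, Subgroup.mem_map] at h1
    obtain ⟨k', hk', hk'e⟩ := h1
    have h2 : x * k' * x⁻¹ = y * k * y⁻¹ := hk'e
    have h3 : x⁻¹ * y * k * (x⁻¹ * y)⁻¹ = x⁻¹ * (y * k * y⁻¹) * x := by group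
    rw [h3, ← h2]
    have h4 : x⁻¹ * (x * k' * x⁻¹) * x = k' := by group
    rw [h4]
    exact hk'
  · intro hk
    have h1 : x * (x⁻¹ * y * k * (x⁻¹ * y)⁻¹) * x⁻¹ ∈ H.map (MulAut.conj x).toMonoidHom :=
      Subgroup.mem_map.mpr ⟨_, hk, rfl⟩
    rw [heq, Subgroup.mem_map] at h1
    obtain ⟨k', hk', hk'e⟩ := h1
    have h2 : y * k' * y⁻¹ = x * (x⁻¹ * y * k * (x⁻¹ * y)⁻¹) * x⁻¹ := hk'e
    have h3 : k = y⁻¹ * (x * (x⁻¹ * y * k * (x⁻¹ * y)⁻¹) * x⁻¹) * y := by group
    rw [h3, ← h2]
    have h4 : y⁻¹ * (y * k' * y⁻¹) * y = k' := by group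
    rw [h4]
    exact hk'

/-- Elements of the bad set normalize `H`. -/
theorem ftD_mem_normalizer (H : Subgroup G) (hone : FTHyp H) {g : G} (hg : ftD H g) :
    g ∈ Subgroup.normalizer (H : Set G) := by
  have h1 : ftD H ((1 : G)⁻¹ * g * 1) := by simpa using hg
  have h2 : ftD H (g⁻¹ * g * g) := by simpa using hg
  simpa using ftD_conj_normalizer H hone h1 h2

theorem ft_card_le [Fintype G] (H : Subgroup G) [DecidablePred (ftD H)]
    [DecidablePred (fun g : G => g ∈ Subgroup.center G)] (hone : FTHyp H) (g : G) :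
    ((Finset.univ.filter (fun x : G => ftD H (x⁻¹ * g * x))).card : ℝ) ≤
      if g ∈ Subgroup.center G then 0 else (Nat.card (Subgroup.normalizer (H : Set G)) : ℝ) := by
  classical
  split_ifs with hg
  · have : Finset.univ.filter (fun x : G => ftD H (x⁻¹ * g * x)) = ∅ := by
      rw [Finset.filter_eq_empty_iff]
      intro x _ hx
      exact ftD_not_center_conj H hx hg
    rw [this]
    simp
  · by_cases hne : (Finset.univ.filter (fun x : G => ftD H (x⁻¹ * g * x))).Nonempty
    · obtain ⟨x₀, hx₀⟩ := hne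
      rw [Finset.mem_filter] at hx₀
      have hcard : Nat.card (Subgroup.normalizer (H : Set G)) =
          (Finset.univ.filter (fun y : G => y ∈ Subgroup.normalizer (H : Set G))).card := by
        rw [Nat.card_eq_fintype_card, Fintype.card_subtype]
      rw [hcard]
      norm_cast
      apply Finset.card_le_card_of_injOn (fun x => x₀⁻¹ * x)
      · intro x hx
        rw [Finset.coe_filter] at hx
        rw [Finset.coe_filter]
        exact ⟨Finset.mem_univ _, ftD_conj_normalizer H hone hx₀.2 hx.2⟩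
      · intro x _ y _ hxy
        exact mul_left_cancel hxy
    · rw [Finset.not_nonempty_iff_eq_empty] at hne
      rw [hne]
      simp

/-- The counting inequality for the bad set. -/
theorem ft_count [Fintype G] (H : Subgroup G) (hone : FTHyp H) (f : G → ℝ)
    (hf0 : ∀ g, 0 ≤ f g) (hfc : ∀ g x : G, f (x * g * x⁻¹) = f g) [DecidablePred (ftD H)]
    [DecidablePred (fun g : G => g ∈ Subgroup.center G)] :
    (Nat.card G : ℝ) * ∑ g : G, (if ftD H g then f g else 0) ≤
      (Nat.card (Subgroup.normalizer (H : Set G)) : ℝ) * ∑ g : G, (if g ∈ Subgroup.center G then 0 else f g) := by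
  classical
  have h2 : ∀ x : G, ∑ g : G, (if ftD H g then f g else 0) =
      ∑ g : G, (if ftD H (x⁻¹ * g * x) then f g else 0) := by
    intro x
    rw [← Equiv.sum_comp (MulAut.conj x⁻¹).toEquiv]
    apply Finset.sum_congr rfl
    intro g _
    have h3 : (MulAut.conj x⁻¹).toEquiv g = x⁻¹ * g * x := by simp
    rw [h3]
    have h4 : f (x⁻¹ * g * x) = f g := by
      have := hfc g x⁻¹
      rwa [inv_inv] at this
    rw [h4]
  have h1 : (Nat.card G : ℝ) * ∑ g : G, (if ftD H g then f g else 0) =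
      ∑ x : G, ∑ g : G, (if ftD H (x⁻¹ * g * x) then f g else 0) := by
    rw [← Finset.sum_congr rfl (fun x _ => h2 x), Finset.sum_const, Finset.card_univ,
      nsmul_eq_mul, Nat.card_eq_fintype_card]
  rw [h1, Finset.sum_comm, Finset.mul_sum]
  apply Finset.sum_le_sum
  intro g _
  have h5 : ∑ x : G, (if ftD H (x⁻¹ * g * x) then f g else 0) =
      ((Finset.univ.filter (fun x : G => ftD H (x⁻¹ * g * x))).card : ℝ) * f g := by
    rw [← Finset.sum_filter, Finset.sum_const, nsmul_eq_mul]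
  rw [h5]
  have h6 := ft_card_le H hone g
  split_ifs with hg
  · rw [if_pos hg] at h6
    have h7 : ((Finset.univ.filter (fun x : G => ftD H (x⁻¹ * g * x))).card : ℝ) = 0 :=
      le_antisymm h6 (by positivity)
    rw [h7]
    simp
  · rw [if_neg hg] at h6
    exact mul_le_mul_of_nonneg_right h6 (hf0 g)

end FTA

end Cfsg.Agent.Helper15
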