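import Mathlib
import Cfsg.Prelude.Def_Characters
import Cfsg.Agent.Helper15.CharInner
import Cfsg.Agent.Helper15.CharScalar
import Cfsg.Agent.Helper15.Gallagher2
import Cfsg.Agent.Helper15.MassM
import Cfsg.Agent.Helper15.FTLemmaA

set_option autoImplicit false

namespace Cfsg.Agent.Helper15

open Cfsg
open scoped ComplexConjugate

section FTB

/-- The sum of the squared norms is the order times the inner product. -/
theorem sum_normSq_eq_inner {R : Type*} [Group R] [Fintype R] (f : R → ℂ) :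
    ((∑ g : R, Complex.normSq (f g) : ℝ) : ℂ) = (Nat.card R : ℂ) * classInner f f := by
  unfold classInner
  have : (Nat.card R : ℂ) ≠ 0 := by exact_mod_cast Nat.card_pos.ne'
  rw [← mul_assoc, mul_inv_cancel₀ this, one_mul, Complex.ofReal_sum]
  apply Finset.sum_congr rfl
  intro g _
  rw [Complex.mul_conj]

/-- If the average of a character over a normal subgroup differs from the character, the
norm drops by at least one. -/
theorem avg_norm_gap {M : Type*} [Group M] [Fintype M] (K : Subgroup M) [K.Normal] [Fintype K]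
    (θ : M → ℂ) (hθ : IsCharacter M θ) (hne : avgN K θ ≠ θ) :
    (∑ m : M, Complex.normSq (avgN K θ m)) + (Nat.card M : ℝ) ≤
      ∑ m : M, Complex.normSq (θ m) := by
  classical
  have : Fintype (IrrCharacter M) := Fintype.ofFinite _
  have hcl := isClassFunction_of_isChar hθ
  have hωcl := avgN_isClassFunction K hcl
  have hm : ∀ γ : IrrCharacter M, ∃ n : ℕ, classInner θ γ = (n : ℂ) :=
    fun γ => inner_nat hθ (isChar_of_irr γ.2)
  choose nγ hnγ using hm
  obtain ⟨aγ, haγ⟩ : ∃ aγ : IrrCharacter M → ℕ, ∀ γ, aγ γ =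
      if (∀ x ∈ K, (γ : M → ℂ) x = (γ : M → ℂ) 1) then nγ γ else 0 := ⟨_, fun _ => rfl⟩
  have hω : ∀ γ : IrrCharacter M, classInner (avgN K θ) γ = (aγ γ : ℂ) := by
    intro γ
    rw [classInner_avgN K θ γ.2, hnγ, haγ]
    split_ifs <;> simp
  have hex : ∃ γ₀ : IrrCharacter M,
      ¬ (∀ x ∈ K, (γ₀ : M → ℂ) x = (γ₀ : M → ℂ) 1) ∧ nγ γ₀ ≠ 0 := by
    by_contra hcon
    have hcon' : ∀ γ : IrrCharacter M, ¬ (∀ x ∈ K, (γ : M → ℂ) x = (γ : M → ℂ) 1) → nγ γ = 0 :=
      fun γ hk => by_contra (fun hn => hcon ⟨γ, hk, hn⟩)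
    apply hne
    rw [classFun_eq_sum hωcl]
    conv_rhs => rw [classFun_eq_sum hcl]
    apply Finset.sum_congr rfl
    intro γ _
    rw [hω, hnγ, haγ]
    by_cases hk : ∀ x ∈ K, (γ : M → ℂ) x = (γ : M → ℂ) 1
    · rw [if_pos hk]
    · rw [if_neg hk, hcon' γ hk]
  obtain ⟨γ₀, hγ₀, hn₀⟩ := hex
  have h1 : classInner θ θ = ((∑ γ : IrrCharacter M, nγ γ ^ 2 : ℕ) : ℂ) := by
    rw [classInner_eq_sum hcl]
    push_cast
    apply Finset.sum_congr rfl
    intro γ _
    rw [hnγ, Complex.conj_natCast]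
    ring
  have h2 : classInner (avgN K θ) (avgN K θ) =
      ((∑ γ : IrrCharacter M, aγ γ ^ 2 : ℕ) : ℂ) := by
    rw [classInner_eq_sum hωcl]
    push_cast
    apply Finset.sum_congr rfl
    intro γ _
    rw [hω, Complex.conj_natCast]
    ring
  have h3 : (∑ γ : IrrCharacter M, aγ γ ^ 2) + 1 ≤ ∑ γ : IrrCharacter M, nγ γ ^ 2 := by
    have h4 : (∑ γ : IrrCharacter M, aγ γ ^ 2) + 1 =
        ∑ γ : IrrCharacter M, (aγ γ ^ 2 + (if γ = γ₀ then 1 else 0)) := by
      rw [Finset.sum_add_distrib, Finset.sum_ite_eq' Finset.univ γ₀ (fun _ => 1)]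
      simp
    rw [h4]
    apply Finset.sum_le_sum
    intro γ _
    rw [haγ]
    by_cases hγ : γ = γ₀
    · subst hγ
      rw [if_neg hγ₀, if_pos rfl]
      have : 1 ≤ nγ γ := Nat.one_le_iff_ne_zero.mpr hn₀
      nlinarith
    · rw [if_neg hγ]
      split_ifs
      · simp
      · simp
  have h5 := sum_normSq_eq_inner θ
  have h6 := sum_normSq_eq_inner (avgN K θ)
  rw [h1] at h5
  rw [h2] at h6
  have h5' : (∑ m : M, Complex.normSq (θ m) : ℝ) =
      (Nat.card M : ℝ) * ((∑ γ : IrrCharacter M, nγ γ ^ 2 : ℕ) : ℝ) := by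
    exact_mod_cast h5
  have h6' : (∑ m : M, Complex.normSq (avgN K θ m) : ℝ) =
      (Nat.card M : ℝ) * ((∑ γ : IrrCharacter M, aγ γ ^ 2 : ℕ) : ℝ) := by
    exact_mod_cast h6
  rw [h5', h6']
  have h7 : ((∑ γ : IrrCharacter M, aγ γ ^ 2 : ℕ) : ℝ) + 1 ≤
      ((∑ γ : IrrCharacter M, nγ γ ^ 2 : ℕ) : ℝ) := by
    exact_mod_cast h3
  have h8 : (0 : ℝ) ≤ (Nat.card M : ℝ) := by positivity
  nlinarith

variable {G : Type*} [Group G] [Fintype G]

omit [Fintype G] in
/-- The average over `H` is invariant under translation by `H`. -/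
theorem avgN_mul_mem (H : Subgroup G) [Fintype H] (F : G → ℂ) {h : G} (hh : h ∈ H) (g : G) :
    avgN H F (h * g) = avgN H F g := by
  unfold avgN
  congr 1
  conv_rhs => rw [← Equiv.sum_comp (Equiv.mulRight (⟨h, hh⟩ : H))]
  apply Finset.sum_congr rfl
  intro k _
  simp [mul_assoc]

omit [Fintype G] in
/-- On elements of the normalizer acting without fixed points on `H`, the average of a class
function is the function itself. -/
theorem ft_avg_fpf (H : Subgroup G) [Fintype H] (χ : G → ℂ) (hcl : IsClassFunction G χ) {g : G}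
    (hg : g ∈ Subgroup.normalizer (H : Set G)) (hfpf : ∀ h ∈ H, g * h = h * g → h = 1) :
    avgN H χ g = χ g := by
  have hmem : ∀ k : H, (k : G) * g * (k : G)⁻¹ * g⁻¹ ∈ H := by
    intro k
    have h1 : g * (k : G)⁻¹ * g⁻¹ ∈ H :=
      (Subgroup.mem_normalizer_iff.mp hg _).mp (H.inv_mem k.2)
    have h2 : (k : G) * g * (k : G)⁻¹ * g⁻¹ = (k : G) * (g * (k : G)⁻¹ * g⁻¹) := by group
    rw [h2]
    exact H.mul_mem k.2 h1
  let σ : H → H := fun k => ⟨(k : G) * g * (k : G)⁻¹ * g⁻¹, hmem k⟩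
  have hinj : Function.Injective σ := by
    intro k k' hkk
    have h1 : (k : G) * g * (k : G)⁻¹ * g⁻¹ = (k' : G) * g * (k' : G)⁻¹ * g⁻¹ :=
      congrArg Subtype.val hkk
    have h2 : g * ((k : G)⁻¹ * (k' : G)) = ((k : G)⁻¹ * (k' : G)) * g := by
      have h3 : (k : G) * g * (k : G)⁻¹ = (k' : G) * g * (k' : G)⁻¹ := mul_right_cancel h1
      calc g * ((k : G)⁻¹ * (k' : G)) = (k : G)⁻¹ * ((k : G) * g * (k : G)⁻¹) * (k' : G) := by
            group
        _ = (k : G)⁻¹ * ((k' : G) * g * (k' : G)⁻¹) * (k' : G) := by rw [h3]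
        _ = _ := by group
    have h4 := hfpf _ (H.mul_mem (H.inv_mem k.2) k'.2) h2
    apply Subtype.ext
    exact inv_mul_eq_one.mp h4
  have hbij : Function.Bijective σ := hinj.bijective_of_finite
  unfold avgN
  rw [← Equiv.sum_comp (Equiv.ofBijective σ hbij)]
  have h1 : ∀ k : H, χ (((Equiv.ofBijective σ hbij) k : H) * g) = χ g := by
    intro k
    have h2 : (((Equiv.ofBijective σ hbij) k : H) : G) * g = (k : G) * g * (k : G)⁻¹ := by
      show (k : G) * g * (k : G)⁻¹ * g⁻¹ * g = _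
      group
    rw [h2, hcl]
  rw [Finset.sum_congr rfl (fun k _ => h1 k), Finset.sum_const, Finset.card_univ, nsmul_eq_mul,
    ← Nat.card_eq_fintype_card, ← mul_assoc, inv_mul_cancel₀, one_mul]
  exact_mod_cast Nat.card_pos.ne'

omit [Fintype G] in
/-- The value of the average at a product of an element of `H` and a central element. -/
theorem ft_avg_center (H : Subgroup G) [Fintype H] [Finite G] (χ : G → ℂ)
    (hχ : IsIrrCharacter G χ) {h z : G} (hh : h ∈ H) (hz : z ∈ Subgroup.center G) :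
    Complex.normSq (avgN H χ (h * z)) =
      Complex.normSq (classInner (fun k : H => χ k) (fun _ => 1)) := by
  obtain ⟨n, ρ, hirr, rfl⟩ := hχ
  have := hirr
  obtain ⟨c, hc⟩ := rep_central_scalar ρ hz
  have hnorm := norm_eq_one_of_rep_scalar ρ hc
  have h1 : avgN H ρ.character (h * z) = c * classInner (fun k : H => ρ.character k) (fun _ => 1) := by
    rw [avgN_mul_mem H _ hh]
    unfold avgN classInner
    rw [mul_left_comm]
    congr 1
    rw [Finset.mul_sum]
    apply Finset.sum_congr rfl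
    intro k _
    rw [Subgroup.mem_center_iff.mp hz (k : G), char_mul_of_rep_scalar ρ hc]
    simp
  rw [h1, map_mul, Complex.normSq_eq_norm_sq c, hnorm]
  simp

/-- The norm gap over the normalizer. -/
theorem ft_gap (H : Subgroup G) [Fintype H] (χ : G → ℂ) (hχ : IsCharacter G χ)
    (hker : ∃ h ∈ H, χ h ≠ χ 1) :
    subNorm (Subgroup.normalizer (H : Set G)) (avgN H χ) +
      (Nat.card (Subgroup.normalizer (H : Set G)) : ℝ) ≤
      subNorm (Subgroup.normalizer (H : Set G)) χ := by
  classical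
  have : Fintype (Subgroup.normalizer (H : Set G)) := Fintype.ofFinite _
  have : Fintype (H.subgroupOf (Subgroup.normalizer (H : Set G))) := Fintype.ofFinite _
  rw [subNorm_eq_sum, subNorm_eq_sum]
  have hθ := Cfsg.Agent.Helper79.isCharacter_restrict hχ (Subgroup.normalizer (H : Set G))
  have hav : ∀ m : Subgroup.normalizer (H : Set G),
      avgN (H.subgroupOf (Subgroup.normalizer (H : Set G)))
        (fun x : Subgroup.normalizer (H : Set G) => χ x) m = avgN H χ (m : G) := by
    intro m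
    unfold avgN
    have hcard : Nat.card (H.subgroupOf (Subgroup.normalizer (H : Set G))) = Nat.card H :=
      Nat.card_congr (Subgroup.subgroupOfEquivOfLe H.le_normalizer).toEquiv
    rw [hcard]
    congr 1
    apply Fintype.sum_equiv (Subgroup.subgroupOfEquivOfLe H.le_normalizer).toEquiv
    intro k
    rfl
  have hne : avgN (H.subgroupOf (Subgroup.normalizer (H : Set G)))
        (fun x : Subgroup.normalizer (H : Set G) => χ x) ≠
      (fun x : Subgroup.normalizer (H : Set G) => χ x) := by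
    intro heq
    obtain ⟨h, hh, hne⟩ := hker
    apply hne
    have h1 := congrFun heq ⟨h, H.le_normalizer hh⟩
    have h2 := congrFun heq 1
    rw [hav] at h1 h2
    simp only [OneMemClass.coe_one] at h1 h2
    rw [← h1, ← h2]
    have h3 := avgN_mul_mem H χ hh 1
    rwa [mul_one] at h3
  have h := avg_norm_gap (H.subgroupOf (Subgroup.normalizer (H : Set G)))
    (fun x : Subgroup.normalizer (H : Set G) => χ x) hθ hne
  rw [Finset.sum_congr rfl (fun m _ => by rw [hav m])] at h
  exact h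

end FTB

end Cfsg.Agent.Helper15
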