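import Mathlib
import Cfsg.Prelude.Def_Characters
import Cfsg.Agent.Helper15.FTLemmaB

set_option autoImplicit false

namespace Cfsg.Agent.Helper15

open Cfsg
open scoped ComplexConjugate

section FTC

variable {G : Type*} [Group G]

/-- The absolute value of an irreducible character at a central element. -/
theorem normSq_char_center [Finite G] (χ : G → ℂ) (hχ : IsIrrCharacter G χ) {z : G}
    (hz : z ∈ Subgroup.center G) : Complex.normSq (χ z) = Complex.normSq (χ 1) := by
  obtain ⟨n, ρ, hirr, rfl⟩ := hχ
  have := hirr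
  obtain ⟨c, hc⟩ := rep_central_scalar ρ hz
  have hnorm := norm_eq_one_of_rep_scalar ρ hc
  have h1 := char_mul_of_rep_scalar ρ hc 1
  rw [mul_one] at h1
  rw [h1, map_mul, Complex.normSq_eq_norm_sq c, hnorm]
  simp

/-- Products of elements of `H` and central elements lie in the centre or in the bad set. -/
theorem ftD_of_mul_center (H : Subgroup G) (hZ : H ⊓ Subgroup.center G = ⊥) {h z : G}
    (hh : h ∈ H) (hz : z ∈ Subgroup.center G) :
    h * z ∈ Subgroup.center G ∨ ftD H (h * z) := by
  by_cases h1 : h = 1
  · left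
    rw [h1, one_mul]
    exact hz
  · right
    refine ⟨?_, h, hh, h1, ?_⟩
    · intro hc
      have h2 : h ∈ Subgroup.center G := by
        have := (Subgroup.center G).mul_mem hc ((Subgroup.center G).inv_mem hz)
        rwa [mul_inv_cancel_right] at this
      have h3 : h ∈ H ⊓ Subgroup.center G := Subgroup.mem_inf.mpr ⟨hh, h2⟩
      rw [hZ, Subgroup.mem_bot] at h3
      exact h1 h3
    · rw [mul_assoc, ← Subgroup.mem_center_iff.mp hz h]

variable [Fintype G]

/-- The first Feit–Thompson inequality, with the multiplicity expressed as a squared norm. -/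
theorem ft_main_normSq (H : Subgroup G) [Fintype H]
    (hZ : H ⊓ Subgroup.center G = ⊥) (hone : FTHyp H)
    (χ : G → ℂ) (hχ : IsIrrCharacter G χ) (hker : ∃ h ∈ H, χ h ≠ χ 1) :
    (Nat.card H : ℝ) * Complex.normSq (classInner (fun h : H => χ h) (fun _ => 1)) <
      (χ 1).re ^ 2 := by
  classical
  have hχc := isChar_of_irr hχ
  have hcl := isClassFunction_of_isChar hχc
  have hgap := ft_gap H χ hχc hker
  have hcount := ft_count H hone (fun g => Complex.normSq (χ g))
    (fun g => Complex.normSq_nonneg _) (fun g x => by rw [hcl g x])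
  have htot : ∑ g : G, Complex.normSq (χ g) = (Nat.card G : ℝ) := by
    have h1 := sum_normSq_eq_inner χ
    rw [irr_inner_self hχ, mul_one] at h1
    exact_mod_cast h1
  have hdeg := Cfsg.Agent.Helper80.isCharacter_one_eq hχc
  have hdpos : 0 < charDegree χ := Cfsg.Agent.Helper80.irr_degree_pos ⟨χ, hχ⟩
  have hn2 : (χ 1).re ^ 2 = (charDegree χ : ℝ) ^ 2 := by
    rw [hdeg]; simp
  have hn2' : Complex.normSq (χ 1) = (χ 1).re ^ 2 := by
    rw [hn2, hdeg]; simp [sq]
  have hn2pos : 0 < (χ 1).re ^ 2 := by
    rw [hn2]; positivity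
  have hcen : ∀ z ∈ Subgroup.center G, Complex.normSq (χ z) = (χ 1).re ^ 2 := by
    intro z hz
    rw [normSq_char_center χ hχ hz, hn2']
  -- the pointwise identity
  have hpt : ∀ g : G,
      (if g ∈ Subgroup.normalizer (H : Set G) then Complex.normSq (χ g) else 0) -
        (if g ∈ Subgroup.normalizer (H : Set G) then Complex.normSq (avgN H χ g) else 0) =
      (if g ∈ Subgroup.center G then (χ 1).re ^ 2 else 0) +
        (if ftD H g then Complex.normSq (χ g) else 0) -
        (if (g ∈ Subgroup.center G ∨ ftD H g) then Complex.normSq (avgN H χ g) else 0) := by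
    intro g
    by_cases hgz : g ∈ Subgroup.center G
    · have hgN : g ∈ Subgroup.normalizer (H : Set G) := by
        rw [Subgroup.mem_normalizer_iff]
        intro h
        have : g * h * g⁻¹ = h := by
          rw [← Subgroup.mem_center_iff.mp hgz h, mul_inv_cancel_right]
        rw [this]
      have hnD : ¬ ftD H g := fun hD => hD.1 hgz
      rw [if_pos hgN, if_pos hgN, if_pos hgz, if_neg hnD, if_pos (Or.inl hgz), hcen g hgz]
      ring
    · by_cases hgD : ftD H g
      · have hgN := ftD_mem_normalizer H hone hgD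
        rw [if_pos hgN, if_pos hgN, if_neg hgz, if_pos hgD, if_pos (Or.inr hgD)]
        ring
      · have hnor : ¬ (g ∈ Subgroup.center G ∨ ftD H g) := fun h => h.elim hgz hgD
        rw [if_neg hgz, if_neg hgD, if_neg hnor]
        by_cases hgN : g ∈ Subgroup.normalizer (H : Set G)
        · rw [if_pos hgN, if_pos hgN]
          have hfpf : ∀ h ∈ H, g * h = h * g → h = 1 := by
            intro h hh hcomm
            by_contra h1
            exact hgD ⟨hgz, h, hh, h1, hcomm⟩
          rw [ft_avg_fpf H χ hcl hgN hfpf]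
          ring
        · rw [if_neg hgN, if_neg hgN]
          ring
  have hsum : subNorm (Subgroup.normalizer (H : Set G)) χ -
      subNorm (Subgroup.normalizer (H : Set G)) (avgN H χ) =
      (Nat.card (Subgroup.center G) : ℝ) * (χ 1).re ^ 2 +
        (∑ g : G, (if ftD H g then Complex.normSq (χ g) else 0)) -
        ∑ g : G, (if (g ∈ Subgroup.center G ∨ ftD H g) then
          Complex.normSq (avgN H χ g) else 0) := by
    unfold subNorm
    rw [← Finset.sum_sub_distrib, Finset.sum_congr rfl (fun g _ => hpt g),
      Finset.sum_sub_distrib, Finset.sum_add_distrib]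
    congr 2
    rw [← Finset.sum_filter, Finset.sum_const, nsmul_eq_mul, Nat.card_eq_fintype_card,
      Fintype.card_subtype]
  -- the lower bound for the sum over `H Z`
  have hT : (Nat.card H : ℝ) * (Nat.card (Subgroup.center G) : ℝ) *
      Complex.normSq (classInner (fun h : H => χ h) (fun _ => 1)) ≤
      ∑ g : G, (if (g ∈ Subgroup.center G ∨ ftD H g) then
          Complex.normSq (avgN H χ g) else 0) := by
    have : Fintype (Subgroup.center G) := Fintype.ofFinite _
    let φ : H × Subgroup.center G → G := fun p => (p.1 : G) * (p.2 : G)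
    have hφ : Function.Injective φ := by
      intro p q hpq
      have h1 : (p.1 : G) * (p.2 : G) = (q.1 : G) * (q.2 : G) := hpq
      have h2 : (q.1 : G)⁻¹ * (p.1 : G) = (q.2 : G) * (p.2 : G)⁻¹ := by
        rw [inv_mul_eq_iff_eq_mul, ← mul_assoc, ← h1, mul_inv_cancel_right]
      have h3 : (q.1 : G)⁻¹ * (p.1 : G) ∈ H ⊓ Subgroup.center G := by
        refine Subgroup.mem_inf.mpr ⟨H.mul_mem (H.inv_mem q.1.2) p.1.2, ?_⟩
        rw [h2]
        exact (Subgroup.center G).mul_mem q.2.2 ((Subgroup.center G).inv_mem p.2.2)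
      rw [hZ, Subgroup.mem_bot] at h3
      have h4 : (p.1 : G) = (q.1 : G) := by
        rw [inv_mul_eq_one] at h3
        exact h3.symm
      have h5 : (p.2 : G) = (q.2 : G) := by
        rw [h4] at h1
        exact mul_left_cancel h1
      exact Prod.ext (Subtype.ext h4) (Subtype.ext h5)
    have h1 : ∑ p : H × Subgroup.center G, Complex.normSq (avgN H χ (φ p)) =
        (Nat.card H : ℝ) * (Nat.card (Subgroup.center G) : ℝ) *
          Complex.normSq (classInner (fun h : H => χ h) (fun _ => 1)) := by
      rw [Finset.sum_congr rfl (fun p _ => ft_avg_center H χ hχ p.1.2 p.2.2), Finset.sum_const,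
        Finset.card_univ, Fintype.card_prod, nsmul_eq_mul, Nat.card_eq_fintype_card,
        Nat.card_eq_fintype_card]
      push_cast
      ring
    rw [← h1, ← Finset.sum_filter, ← Finset.sum_image (f := fun g => Complex.normSq (avgN H χ g))
      (fun p _ q _ hpq => hφ hpq)]
    apply Finset.sum_le_sum_of_subset_of_nonneg
    · intro g hg
      rw [Finset.mem_image] at hg
      obtain ⟨p, -, rfl⟩ := hg
      rw [Finset.mem_filter]
      exact ⟨Finset.mem_univ _, ftD_of_mul_center H hZ p.1.2 p.2.2⟩
    · intro g _ _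
      exact Complex.normSq_nonneg _
  -- the upper bound for the sum over the bad set
  have hSD : (Nat.card G : ℝ) * ∑ g : G, (if ftD H g then Complex.normSq (χ g) else 0) ≤
      (Nat.card (Subgroup.normalizer (H : Set G)) : ℝ) *
        ((Nat.card G : ℝ) - (Nat.card (Subgroup.center G) : ℝ) * (χ 1).re ^ 2) := by
    refine le_trans hcount (le_of_eq ?_)
    congr 1
    have h1 : ∀ g : G, (if g ∈ Subgroup.center G then 0 else Complex.normSq (χ g)) =
        Complex.normSq (χ g) - (if g ∈ Subgroup.center G then (χ 1).re ^ 2 else 0) := by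
      intro g
      split_ifs with hg
      · rw [hcen g hg]; ring
      · ring
    rw [Finset.sum_congr rfl (fun g _ => h1 g), Finset.sum_sub_distrib, htot]
    congr 1
    rw [← Finset.sum_filter, Finset.sum_const, nsmul_eq_mul, Nat.card_eq_fintype_card,
      Fintype.card_subtype]
  -- conclusion
  have hGpos : (0 : ℝ) < (Nat.card G : ℝ) := by exact_mod_cast Nat.card_pos
  have hNpos : (0 : ℝ) < (Nat.card (Subgroup.normalizer (H : Set G)) : ℝ) := by
    exact_mod_cast Nat.card_pos
  have hZpos : (0 : ℝ) < (Nat.card (Subgroup.center G) : ℝ) := by exact_mod_cast Nat.card_pos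
  by_contra hcon
  rw [not_lt] at hcon
  set SD := ∑ g : G, (if ftD H g then Complex.normSq (χ g) else 0) with hSDdef
  set T := ∑ g : G, (if (g ∈ Subgroup.center G ∨ ftD H g) then
          Complex.normSq (avgN H χ g) else 0) with hTdef
  set c2 := Complex.normSq (classInner (fun h : H => χ h) (fun _ => 1)) with hc2
  set n2 := (χ 1).re ^ 2 with hn2def
  have h1 : (Nat.card (Subgroup.normalizer (H : Set G)) : ℝ) ≤ SD := by
    have h2 : (Nat.card (Subgroup.center G) : ℝ) * (n2 - (Nat.card H : ℝ) * c2) ≤ 0 :=
      mul_nonpos_of_nonneg_of_nonpos hZpos.le (by linarith)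
    nlinarith
  have h3 : (Nat.card G : ℝ) * (Nat.card (Subgroup.normalizer (H : Set G)) : ℝ) ≤
      (Nat.card G : ℝ) * SD := mul_le_mul_of_nonneg_left h1 hGpos.le
  have h4 : 0 < (Nat.card (Subgroup.normalizer (H : Set G)) : ℝ) *
      ((Nat.card (Subgroup.center G) : ℝ) * n2) := by positivity
  nlinarith

end FTC

end Cfsg.Agent.Helper15
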