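import Mathlib
import Cfsg.Agent.Helper16.NGDefs

/-!
# CALL S4404 (helper16), piece INIT (helper15): a generator of `Q` gives the configuration `Cfg`.
-/

set_option autoImplicit false

namespace Cfsg.Agent.Helper15.NGINIT
open Cfsg.Agent.Helper16.NG

variable {S : Type*} [Group S]

/-- INIT -/
theorem ng_init [Finite S] (M : Subgroup S) [M.Normal]
    (hM : Cfsg.IsElementaryAbelian 2 M) (Q : Subgroup S) (hQc : IsCyclic ↥Q) (hQ3 : IsPGroup 3 ↥Q)
    (hQ1 : ∀ x ∈ Q, x ^ 3 ∈ Subgroup.centralizer (M : Set S)) (hQM : Nat.card ↥⁅Q, M⁆ = 4) :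
    ∃ x ∈ Q, Cfg M ⁅Q, M⁆ x := by
  classical
  have hnorm : M.Normal := inferInstance
  have hcomm : ∀ a ∈ M, ∀ b ∈ M, a * b = b * a := by
    intro a ha b hb
    have hc := hM.1
    have := mul_comm' (⟨a, ha⟩ : M) ⟨b, hb⟩
    exact congrArg Subtype.val this
  obtain ⟨g, hg⟩ := hQc.exists_generator
  refine ⟨(g : S), g.2, ?_⟩
  set x : S := (g : S) with hx
  -- the subgroup `W = {x m x⁻¹ m⁻¹}`
  let W : Subgroup S :=
    { carrier := {v | ∃ m ∈ M, v = x * m * x⁻¹ * m⁻¹}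
      one_mem' := ⟨1, M.one_mem, by group⟩
      mul_mem' := by
        rintro _ _ ⟨m, hm, rfl⟩ ⟨n, hn, rfl⟩
        refine ⟨m * n, M.mul_mem hm hn, ?_⟩
        have h1 : m⁻¹ * (x * n * x⁻¹ * n⁻¹) = (x * n * x⁻¹ * n⁻¹) * m⁻¹ :=
          hcomm _ (M.inv_mem hm) _ (M.mul_mem (hnorm.conj_mem n hn x) (M.inv_mem hn))
        calc x * m * x⁻¹ * m⁻¹ * (x * n * x⁻¹ * n⁻¹)
            = x * m * x⁻¹ * (m⁻¹ * (x * n * x⁻¹ * n⁻¹)) := by group
          _ = x * m * x⁻¹ * ((x * n * x⁻¹ * n⁻¹) * m⁻¹) := by rw [h1]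
          _ = x * (m * n) * x⁻¹ * (m * n)⁻¹ := by group
      inv_mem' := by
        rintro _ ⟨m, hm, rfl⟩
        refine ⟨m⁻¹, M.inv_mem hm, ?_⟩
        have h1 : m * (x * m⁻¹ * x⁻¹) = (x * m⁻¹ * x⁻¹) * m :=
          hcomm _ hm _ (hnorm.conj_mem _ (M.inv_mem hm) x)
        calc (x * m * x⁻¹ * m⁻¹)⁻¹ = m * (x * m⁻¹ * x⁻¹) := by group
          _ = (x * m⁻¹ * x⁻¹) * m := h1
          _ = x * m⁻¹ * x⁻¹ * m⁻¹⁻¹ := by group }
  have hWmem : ∀ v : S, v ∈ W ↔ ∃ m ∈ M, v = x * m * x⁻¹ * m⁻¹ := fun v => Iff.rfl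
  -- `[x^k, m] ∈ W`
  have hpowW : ∀ k : ℕ, ∀ m ∈ M, x ^ k * m * (x ^ k)⁻¹ * m⁻¹ ∈ W := by
    intro k
    induction k with
    | zero => intro m hm; simp
    | succ k ih =>
      intro m hm
      have hconj : x ^ k * m * (x ^ k)⁻¹ ∈ M := hnorm.conj_mem m hm (x ^ k)
      have h1 : x * (x ^ k * m * (x ^ k)⁻¹) * x⁻¹ * (x ^ k * m * (x ^ k)⁻¹)⁻¹ ∈ W :=
        (hWmem _).2 ⟨_, hconj, rfl⟩
      have h2 := W.mul_mem h1 (ih m hm)
      have h3 : x ^ (k + 1) * m * (x ^ (k + 1))⁻¹ * m⁻¹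
          = x * (x ^ k * m * (x ^ k)⁻¹) * x⁻¹ * (x ^ k * m * (x ^ k)⁻¹)⁻¹
            * (x ^ k * m * (x ^ k)⁻¹ * m⁻¹) := by
        rw [pow_succ']; group
      rw [h3]; exact h2
  have hle : ⁅Q, M⁆ ≤ W := by
    rw [Subgroup.commutator_le]
    intro q hq m hm
    have h1 : (⟨q, hq⟩ : Q) ∈ Subgroup.zpowers g := hg ⟨q, hq⟩
    rw [← mem_powers_iff_mem_zpowers] at h1
    obtain ⟨k, hk⟩ := h1
    have h2 : q = x ^ k := by
      have := congrArg Subtype.val hk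
      simpa using this.symm
    rw [commutatorElement_def, h2]
    exact hpowW k m hm
  refine
    { normal := hnorm
      comm := hcomm
      sq := hM.2
      cube := ?_
      x3 := ?_
      hV := ?_
      card := hQM }
  · intro m hm
    have h1 := hQ1 x g.2
    rw [Subgroup.mem_centralizer_iff] at h1
    have h2 := h1 m hm
    rw [← h2]; group
  · obtain ⟨k, hk⟩ := hQ3 g
    have h1 : x ^ 3 ^ k = 1 := by
      have := congrArg Subtype.val hk
      simpa using this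
    have h2 : orderOf x ∣ 3 ^ k := orderOf_dvd_of_pow_eq_one h1
    obtain ⟨j, -, hj⟩ := (Nat.dvd_prime_pow Nat.prime_three).1 h2
    exact ⟨j, hj⟩
  · intro v
    constructor
    · intro hv
      exact (hWmem v).1 (hle hv)
    · rintro ⟨m, hm, rfl⟩
      have := Subgroup.commutator_mem_commutator g.2 hm
      rwa [commutatorElement_def] at this

end Cfsg.Agent.Helper15.NGINIT
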