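import Mathlib
import Cfsg.Prelude.Def_Characters
import Cfsg.Agent.Helper15.CharInner
import Cfsg.Agent.Helper15.CharScalar
import Cfsg.Agent.Helper15.LinChar
import Cfsg.Agent.Helper15.Gallagher2
import Cfsg.Agent.Helper15.FTLemmaB
import Cfsg.Agent.Helper80.CharEigen
import Cfsg.Agent.Helper75.CliffordCorr

set_option autoImplicit false

namespace Cfsg.Agent.Helper15

open Cfsg
open scoped ComplexConjugate

section RelM1

/-- The normal closure of a conjugation-invariant set is its closure. -/
theorem normalClosure_eq_closure_of_invariant {G : Type*} [Group G] (s : Set G)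
    (h : ∀ g : G, ∀ x ∈ s, g * x * g⁻¹ ∈ s) :
    Subgroup.normalClosure s = Subgroup.closure s := by
  unfold Subgroup.normalClosure
  congr 1
  apply Set.Subset.antisymm
  · intro a ha
    rw [Group.mem_conjugatesOfSet_iff] at ha
    obtain ⟨b, hb, hconj⟩ := ha
    obtain ⟨c, hc⟩ := isConj_iff.mp hconj
    rw [← hc]
    exact h c b hb
  · exact Group.subset_conjugatesOfSet

variable {X : Type*} [Group X] [Fintype X]

/-- An irreducible character whose kernel contains a subgroup with abelian quotient is
linear. -/
theorem irr_linear_of_comm_ker (Y : Subgroup X) (hcomm : ∀ a b : X, a * b * a⁻¹ * b⁻¹ ∈ Y)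
    (γ : X → ℂ) (hγ : IsIrrCharacter X γ) (hk : ∀ y ∈ Y, γ y = γ 1) : γ 1 = 1 := by
  have hirr1 := irr_inner_self hγ
  obtain ⟨k, ρ, hirr, rfl⟩ := hγ
  have := hirr
  have h1 : ∀ y ∈ Y, ρ y = 1 := fun y hy =>
    Cfsg.Agent.Helper80.rep_eq_one_of_char_eq ρ y (by rw [hk y hy, Representation.char_one])
  have h2 : ∀ a b : X, ρ a * ρ b = ρ b * ρ a := by
    intro a b
    have h3 := h1 _ (hcomm a b)
    have h4 : a * b = (a * b * a⁻¹ * b⁻¹) * (b * a) := by group
    rw [← map_mul, h4, map_mul, h3, one_mul, map_mul]
  have h5 : ∀ a : X, ρ.character a * conj (ρ.character a) =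
      (Module.finrank ℂ (Fin k → ℂ) : ℂ) ^ 2 := by
    intro a
    obtain ⟨c, hc⟩ := rep_scalar_of_commute ρ (x := a) (fun g => h2 a g)
    exact char_mul_conj_of_rep_scalar ρ hc
  have h6 : (Module.finrank ℂ (Fin k → ℂ) : ℂ) ^ 2 = 1 := by
    unfold classInner at hirr1
    rw [Finset.sum_congr rfl (fun g _ => h5 g), Finset.sum_const,
      Finset.card_univ, nsmul_eq_mul, ← Nat.card_eq_fintype_card, ← mul_assoc,
      inv_mul_cancel₀ (by exact_mod_cast Nat.card_pos.ne'), one_mul] at hirr1
    exact hirr1
  have h7 : Module.finrank ℂ (Fin k → ℂ) = 1 := by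
    have h8 : Module.finrank ℂ (Fin k → ℂ) * Module.finrank ℂ (Fin k → ℂ) = 1 := by
      rw [← sq]
      exact_mod_cast h6
    exact Nat.eq_one_of_mul_eq_one_right h8
  rw [Representation.char_one, h7]
  simp

/-- The product of an irreducible character with a linear character is irreducible. -/
theorem irr_hom_mul (g : X →* ℂˣ) (θ : X → ℂ) (hθ : IsIrrCharacter X θ) :
    IsIrrCharacter X (fun x => (g x : ℂ) * θ x) := by
  have hc : IsCharacter X ((fun x => (g x : ℂ)) * θ) :=
    Cfsg.Agent.Helper79.isCharacter_mul (linChar_of_hom g).1 (isChar_of_irr hθ)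
  apply isIrr_of_inner_one hc
  have h1 := irr_inner_self hθ
  unfold classInner at h1 ⊢
  rw [← h1]
  congr 1
  apply Finset.sum_congr rfl
  intro x _
  have h2 : (g x : ℂ) * conj (g x : ℂ) = 1 := by
    rw [Complex.mul_conj, Complex.normSq_eq_norm_sq, Cfsg.Agent.Helper79.norm_hom_apply g]
    simp
  simp only [Pi.mul_apply, map_mul]
  linear_combination (θ x * conj (θ x)) * h2

/-- If the support of an irreducible character `θ` together with a normal subgroup `Y` with
abelian quotient generates the group, the restriction of `θ` to `Y` has norm one. -/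
theorem ram_count (Y : Subgroup X) [Y.Normal] [Fintype Y]
    (hcomm : ∀ a b : X, a * b * a⁻¹ * b⁻¹ ∈ Y) (θ : X → ℂ) (hθ : IsIrrCharacter X θ)
    (hgen : ∀ U : Subgroup X, Y ≤ U → (∀ x, θ x ≠ 0 → x ∈ U) → U = ⊤) :
    classInner (fun y : Y => θ y) (fun y : Y => θ y) = 1 := by
  classical
  have : Fintype (IrrCharacter X) := Fintype.ofFinite _
  have hθcl := isClassFunction_of_isChar (isChar_of_irr hθ)
  have hfcl : IsClassFunction X (fun x => θ x * conj (θ x)) := by
    intro a b
    simp only
    rw [hθcl a b]
  have h1 : classInner (fun y : Y => θ y) (fun y : Y => θ y) =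
      avgN Y (fun x => θ x * conj (θ x)) 1 := by
    unfold classInner avgN
    simp
  rw [h1, classFun_eq_sum (avgN_isClassFunction Y hfcl), Finset.sum_apply]
  rw [Finset.sum_eq_single (⟨fun _ => 1, Cfsg.Agent.Helper79.isIrrCharacter_one⟩ : IrrCharacter X)]
  · rw [classInner_avgN Y _ Cfsg.Agent.Helper79.isIrrCharacter_one, if_pos (fun _ _ => rfl)]
    have h2 : classInner (fun x => θ x * conj (θ x)) (fun _ => (1 : ℂ)) = classInner θ θ := by
      unfold classInner
      congr 1
      apply Finset.sum_congr rfl
      intro x _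
      simp
    rw [Pi.smul_apply, h2, irr_inner_self hθ]
    simp
  · intro γ _ hne
    rw [Pi.smul_apply, classInner_avgN Y _ γ.2]
    by_cases hk : ∀ x ∈ Y, (γ : X → ℂ) x = (γ : X → ℂ) 1
    · rw [if_pos hk]
      have hγ1 := irr_linear_of_comm_ker Y hcomm γ γ.2 hk
      obtain ⟨g, hg⟩ := linChar_exists_hom (γ : X → ℂ) ⟨isChar_of_irr γ.2, hγ1⟩
      have hirr := irr_hom_mul g θ hθ
      have hne' : θ ≠ (fun x => (g x : ℂ) * θ x) := by
        intro heq
        apply hne
        have hU := hgen g.ker (fun y hy => by
            rw [MonoidHom.mem_ker]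
            apply Units.ext
            rw [← hg, hk y hy, hγ1]
            rfl) (fun x hx => by
            rw [MonoidHom.mem_ker]
            apply Units.ext
            have h3 : θ x = (g x : ℂ) * θ x := congrFun heq x
            have h4 : ((g x : ℂ) - 1) * θ x = 0 := by linear_combination -h3
            rcases mul_eq_zero.mp h4 with h5 | h5
            · rw [Units.val_one]
              exact sub_eq_zero.mp h5
            · exact absurd h5 hx)
        apply Subtype.ext
        funext x
        have h3 : x ∈ g.ker := by rw [hU]; exact Subgroup.mem_top x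
        rw [MonoidHom.mem_ker] at h3
        show (γ : X → ℂ) x = 1
        rw [hg, h3]
        rfl
      have h2 : classInner (fun x => θ x * conj (θ x)) (γ : X → ℂ) =
          classInner θ (fun x => (g x : ℂ) * θ x) := by
        unfold classInner
        congr 1
        apply Finset.sum_congr rfl
        intro x _
        rw [hg x, map_mul]
        ring
      rw [h2, irr_inner_ne hθ hirr hne']
      simp
    · rw [if_neg hk]
      simp
  · intro h
    exact absurd (Finset.mem_univ _) h

end RelM1

end Cfsg.Agent.Helper15
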